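import Cfsg.Agent.H34.SL2
import Cfsg.Agent.H34.Star.SemiLinear
import Cfsg.Agent.H34.Conj
import Cfsg.Agent.H47.Ree.SLTwoCard
import Mathlib

/-!
Groups of additive permutations of `F²` containing `SL₂(F)`: semilinearity of the normaliser and the
root group.
-/

set_option autoImplicit false
set_option linter.style.haveILetI false

namespace Cfsg.Agent.H34.Trans

open Subgroup
open scoped Matrix
open Cfsg.Agent.H34.SL2 (upper upper_mul)

variable {F : Type*} [Field F]

/-- The linear action. -/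
def slAct : Matrix.SpecialLinearGroup (Fin 2) F →* Equiv.Perm (Fin 2 → F) where
  toFun A :=
    { toFun := fun v => (A : Matrix (Fin 2) (Fin 2) F) *ᵥ v
      invFun := fun v => ((A⁻¹ : Matrix.SpecialLinearGroup (Fin 2) F) : Matrix (Fin 2) (Fin 2) F) *ᵥ v
      left_inv := fun v => by
        show ((A⁻¹ : Matrix.SpecialLinearGroup (Fin 2) F) : Matrix (Fin 2) (Fin 2) F) *ᵥ
          ((A : Matrix (Fin 2) (Fin 2) F) *ᵥ v) = v
        rw [Matrix.mulVec_mulVec, ← Matrix.SpecialLinearGroup.coe_mul, inv_mul_cancel,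
          Matrix.SpecialLinearGroup.coe_one, Matrix.one_mulVec]
      right_inv := fun v => by
        show (A : Matrix (Fin 2) (Fin 2) F) *ᵥ
          (((A⁻¹ : Matrix.SpecialLinearGroup (Fin 2) F) : Matrix (Fin 2) (Fin 2) F) *ᵥ v) = v
        rw [Matrix.mulVec_mulVec, ← Matrix.SpecialLinearGroup.coe_mul, mul_inv_cancel,
          Matrix.SpecialLinearGroup.coe_one, Matrix.one_mulVec] }
  map_one' := Equiv.ext fun v => by
    show ((1 : Matrix.SpecialLinearGroup (Fin 2) F) : Matrix (Fin 2) (Fin 2) F) *ᵥ v = v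
    rw [Matrix.SpecialLinearGroup.coe_one, Matrix.one_mulVec]
  map_mul' A B := Equiv.ext fun v => by
    show ((A * B : Matrix.SpecialLinearGroup (Fin 2) F) : Matrix (Fin 2) (Fin 2) F) *ᵥ v =
      (A : Matrix (Fin 2) (Fin 2) F) *ᵥ ((B : Matrix (Fin 2) (Fin 2) F) *ᵥ v)
    rw [Matrix.mulVec_mulVec, ← Matrix.SpecialLinearGroup.coe_mul]

theorem slAct_apply (A : Matrix.SpecialLinearGroup (Fin 2) F) (v : Fin 2 → F) :
    slAct A v = (A : Matrix (Fin 2) (Fin 2) F) *ᵥ v := rfl

theorem slAct_injective : Function.Injective (slAct (F := F)) := fun A B h =>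
  Subtype.ext (Matrix.ext_of_mulVec_single fun j => Equiv.ext_iff.1 h _)

/-- The image of `SL₂(F)`. -/
def slRange (F : Type*) [Field F] : Subgroup (Equiv.Perm (Fin 2 → F)) := (slAct (F := F)).range

/-- The root homomorphism. -/
def rootHom : Multiplicative F →* Equiv.Perm (Fin 2 → F) :=
  slAct.comp (MonoidHom.mk' (fun b => upper (Multiplicative.toAdd b)) fun a b => by
    rw [toAdd_mul, upper_mul])

/-- The root group. -/
def rootGroup (F : Type*) [Field F] : Subgroup (Equiv.Perm (Fin 2 → F)) := (rootHom (F := F)).range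

/-- The fixed line. -/
def axis (F : Type*) [Field F] : Submodule F (Fin 2 → F) where
  carrier := {v | v 1 = 0}
  add_mem' := fun {a b} (ha : a 1 = 0) (hb : b 1 = 0) => by
    show (a + b) 1 = 0
    rw [Pi.add_apply, ha, hb, add_zero]
  zero_mem' := rfl
  smul_mem' := fun c v (hv : v 1 = 0) => by
    show (c • v) 1 = 0
    rw [Pi.smul_apply, hv, smul_zero]

theorem mem_axis {v : Fin 2 → F} : v ∈ axis F ↔ v 1 = 0 := Iff.rfl

theorem rootHom_apply (b : Multiplicative F) (v : Fin 2 → F) :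
    rootHom b v = ![v 0 + Multiplicative.toAdd b * v 1, v 1] := by
  show ((upper (Multiplicative.toAdd b) : Matrix.SpecialLinearGroup (Fin 2) F) : Matrix (Fin 2) (Fin 2) F) *ᵥ v = _
  funext i
  fin_cases i <;> simp [Matrix.mulVec, dotProduct, Fin.sum_univ_two]

theorem rootHom_injective : Function.Injective (rootHom (F := F)) := fun a b h => by
  have := congrFun (Equiv.ext_iff.1 h ![0, 1]) 0
  simpa [rootHom_apply] using this

theorem rootGroup_le : rootGroup F ≤ slRange F := by
  rintro _ ⟨b, rfl⟩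
  exact ⟨_, rfl⟩

theorem card_rootGroup : Nat.card ↥(rootGroup F) = Nat.card F :=
  (Nat.card_range_of_injective rootHom_injective).trans (Nat.card_congr Multiplicative.toAdd)

theorem root_sub {u : Equiv.Perm (Fin 2 → F)} (hu : u ∈ rootGroup F) (v : Fin 2 → F) :
    u v - v ∈ axis F := by
  obtain ⟨b, rfl⟩ := hu
  rw [mem_axis, rootHom_apply]
  simp

theorem root_fix {u : Equiv.Perm (Fin 2 → F)} (hu : u ∈ rootGroup F) {v : Fin 2 → F} (hv : v ∈ axis F) :
    u v = v := by
  obtain ⟨b, rfl⟩ := hu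
  rw [rootHom_apply, mem_axis.1 hv]
  funext i
  fin_cases i
  · simp
  · exact hv.symm

theorem root_fixed {u : Equiv.Perm (Fin 2 → F)} (hu : u ∈ rootGroup F) (h1 : u ≠ 1) {v : Fin 2 → F}
    (hv : u v = v) : v ∈ axis F := by
  obtain ⟨b, rfl⟩ := hu
  rw [rootHom_apply] at hv
  have e := congrFun hv 0
  simp at e
  refine e.resolve_left fun hb => h1 ?_
  rw [show b = 1 by rw [hb], map_one]

/-- Additive permutations. -/
def addPerm (F : Type*) [Field F] : Subgroup (Equiv.Perm (Fin 2 → F)) where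
  carrier := {g | ∀ v w, g (v + w) = g v + g w}
  one_mem' := fun _ _ => rfl
  mul_mem' := fun {a b} ha hb v w => by
    show a (b (v + w)) = a (b v) + a (b w)
    rw [hb, ha]
  inv_mem' := fun {a} ha v w => a.injective (by
    rw [ha, Equiv.Perm.coe_inv, Equiv.apply_symm_apply, Equiv.apply_symm_apply, Equiv.apply_symm_apply])

theorem addPerm_zero {g : Equiv.Perm (Fin 2 → F)} (hg : g ∈ addPerm F) : g 0 = 0 := by
  have := hg 0 0
  rw [add_zero, left_eq_add] at this
  exact this

theorem addPerm_sub {g : Equiv.Perm (Fin 2 → F)} (hg : g ∈ addPerm F) (v w : Fin 2 → F) :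
    g (v - w) = g v - g w :=
  map_sub (AddMonoidHom.mk' g hg) v w

theorem slRange_le_addPerm : slRange F ≤ addPerm F := by
  rintro _ ⟨A, rfl⟩ v w
  exact Matrix.mulVec_add (A : Matrix (Fin 2) (Fin 2) F) v w

theorem lin_of_slRange {g : Equiv.Perm (Fin 2 → F)} (hg : g ∈ slRange F) (c : F) (v : Fin 2 → F) :
    g (c • v) = c • g v := by
  obtain ⟨A, rfl⟩ := hg
  exact Matrix.mulVec_smul (A : Matrix (Fin 2) (Fin 2) F) c v

theorem upper_mem (b : F) : slAct (upper b) ∈ rootGroup F := ⟨Multiplicative.ofAdd b, rfl⟩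

variable [Fintype F]

/-- `g` is semilinear for `σ`. -/
def SemiFor (g : Equiv.Perm (Fin 2 → F)) (σ : F ≃+* F) : Prop := ∀ c v, g (c • v) = σ c • g v

theorem SemiFor.unique {g : Equiv.Perm (Fin 2 → F)} {σ τ : F ≃+* F} (hg : g ∈ addPerm F) (h : SemiFor g σ)
    (h' : SemiFor g τ) : σ = τ := by
  refine RingEquiv.ext fun c => smul_left_injective F (fun (h0 : g ![1, 0] = 0) => ?_)
    ((h c ![1, 0]).symm.trans (h' c ![1, 0]))
  have h1 : (![1, 0] : Fin 2 → F) = 0 := g.injective (h0.trans (addPerm_zero hg).symm)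
  exact one_ne_zero (congrFun h1 0)

omit [Fintype F] in
theorem SemiFor.mul {g k : Equiv.Perm (Fin 2 → F)} {σ τ : F ≃+* F} (h : SemiFor g σ) (h' : SemiFor k τ) :
    SemiFor (g * k) (σ * τ) := fun c v => by
  show g (k (c • v)) = σ (τ c) • g (k v)
  rw [h', h]

omit [Fintype F] in
theorem semiFor_one : SemiFor (1 : Equiv.Perm (Fin 2 → F)) 1 := fun _ _ => rfl

omit [Fintype F] in
theorem semiFor_slRange {g : Equiv.Perm (Fin 2 → F)} (hg : g ∈ slRange F) : SemiFor g 1 :=
  lin_of_slRange hg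

/-- Additive permutations normalising `SL₂(F)` are semilinear. -/
theorem exists_semi {g : Equiv.Perm (Fin 2 → F)} (hg : g ∈ addPerm F)
    (hn : g ∈ normalizer (slRange F : Set (Equiv.Perm (Fin 2 → F)))) : ∃ σ : F ≃+* F, SemiFor g σ := by
  have key : ∀ c : F, ∃ c' : F, ∀ v, g (c • g⁻¹ v) = c' • v := by
    intro c
    refine Star.scalar_of_commutes _ (fun v w => ?_) fun A v => ?_
    · rw [(addPerm F).inv_mem hg v w, smul_add, hg]
    · obtain ⟨B, hB⟩ := (mem_normalizer_iff''.1 hn (slAct A)).1 ⟨A, rfl⟩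
      have h1 : g⁻¹ ((A : Matrix (Fin 2) (Fin 2) F) *ᵥ v) = (B : Matrix (Fin 2) (Fin 2) F) *ᵥ g⁻¹ v := by
        rw [← slAct_apply, ← slAct_apply, hB]
        simp
      rw [h1, ← Matrix.mulVec_smul, ← slAct_apply, hB]
      simp [slAct_apply]
  choose s hs using key
  have hs' : ∀ c v, g (c • v) = s c • g v := fun c v => by simpa using hs c (g v)
  have h0 : (![1, 0] : Fin 2 → F) ≠ 0 := fun h => one_ne_zero (congrFun h 0)
  have huniq : ∀ a b : F, a • g ![1, 0] = b • g ![1, 0] → a = b := fun a b h =>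
    smul_left_injective F (fun e => h0 (g.injective (e.trans (addPerm_zero hg).symm))) h
  let sr : F →+* F :=
    { toFun := s
      map_one' := huniq _ _ (by rw [← hs', one_smul, one_smul])
      map_mul' := fun a b => huniq _ _ (by rw [← hs', mul_smul, hs', hs', smul_smul])
      map_zero' := huniq _ _ (by rw [← hs', zero_smul, zero_smul, addPerm_zero hg])
      map_add' := fun a b => huniq _ _ (by rw [← hs', add_smul, hg, hs', hs', add_smul]) }
  exact ⟨RingEquiv.ofBijective sr ⟨sr.injective, Finite.injective_iff_surjective.1 sr.injective⟩, hs'⟩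

theorem det_eq_one_of_pow {p : ℕ} [Fact p.Prime] (hchar : (p : F) = 0) {d : F} {k : ℕ}
    (h : d ^ p ^ k = 1) : d = 1 := by
  haveI : CharP F p := (CharP.charP_iff_prime_eq_zero Fact.out).2 hchar
  haveI : ExpChar F p := ExpChar.prime Fact.out
  refine sub_eq_zero.1 (eq_zero_of_pow_eq_zero (n := p ^ k) ?_)
  rw [sub_pow_expChar_pow, h, one_pow, sub_self]

/-- A linear `p`-element lies in `SL₂(F)`. -/
theorem mem_slRange_of_linear {p : ℕ} [Fact p.Prime] (hchar : (p : F) = 0) {g : Equiv.Perm (Fin 2 → F)}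
    (hg : g ∈ addPerm F) (hlin : SemiFor g 1) {k : ℕ} (hp : g ^ p ^ k = 1) : g ∈ slRange F := by
  classical
  let f : (Fin 2 → F) →ₗ[F] (Fin 2 → F) := { toFun := g, map_add' := hg, map_smul' := hlin }
  let A := LinearMap.toMatrix' f
  have hA : ∀ v, A *ᵥ v = g v := fun v => by
    rw [← Matrix.toLin'_apply]
    show Matrix.toLin' (LinearMap.toMatrix' f) v = g v
    rw [Matrix.toLin'_toMatrix']
    rfl
  have hpow : ∀ (n : ℕ) v, (A ^ n) *ᵥ v = (g ^ n) v := by
    intro n
    induction n with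
    | zero => intro v; simp
    | succ n ih => intro v; rw [pow_succ', ← Matrix.mulVec_mulVec, ih, hA, pow_succ', Equiv.Perm.mul_apply]
  have hAp : A ^ p ^ k = 1 := Matrix.ext_of_mulVec_single fun j => by
    rw [hpow, hp, Equiv.Perm.one_apply, Matrix.one_mulVec]
  have hdet : A.det = 1 := det_eq_one_of_pow hchar (k := k) (by rw [← Matrix.det_pow, hAp, Matrix.det_one])
  exact ⟨⟨A, hdet⟩, Equiv.ext fun v => hA v⟩

/-- The `p`-part of `SL₂(F)`. -/
theorem card_pGroup_slRange {p : ℕ} [Fact p.Prime] {n : ℕ} (hn : 1 ≤ n) (hq : Fintype.card F = p ^ n)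
    {S : Subgroup (Equiv.Perm (Fin 2 → F))} (hS : S ≤ slRange F) (hp : IsPGroup p S) :
    Nat.card S ≤ Fintype.card F := by
  obtain ⟨m, hm⟩ := IsPGroup.iff_card.1 hp
  have hdvd : Nat.card S ∣ Fintype.card F * (Fintype.card F ^ 2 - 1) := by
    rw [← Cfsg.Agent.H47.Ree.card_sl_two, ← Nat.card_range_of_injective slAct_injective]
    exact Subgroup.card_dvd_of_le hS
  rw [hm] at hdvd ⊢
  have hp' : p.Prime := Fact.out
  have hcop : Nat.Coprime (p ^ m) (Fintype.card F ^ 2 - 1) := by
    refine Nat.Coprime.pow_left m (hp'.coprime_iff_not_dvd.2 fun hd => ?_)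
    have h2 : p ∣ Fintype.card F ^ 2 := by
      rw [hq, ← pow_mul]
      exact dvd_pow_self p (by omega)
    have h3 : 1 ≤ Fintype.card F ^ 2 := Nat.one_le_pow _ _ Fintype.card_pos
    have := Nat.dvd_sub h2 hd
    rw [Nat.sub_sub_self h3] at this
    exact hp'.ne_one (Nat.dvd_one.1 this)
  exact Nat.le_of_dvd Fintype.card_pos (hcop.dvd_of_dvd_mul_right hdvd)

/-- Field automorphisms form a cyclic group of small order. -/
theorem ringAut_small {p : ℕ} [Fact p.Prime] (hchar : (p : F) = 0) :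
    IsCyclic (F ≃+* F) ∧ Nat.card (F ≃+* F) < Fintype.card F := by
  haveI : CharP F p := (CharP.charP_iff_prime_eq_zero Fact.out).2 hchar
  letI := ZMod.algebra F p
  let e : (F ≃ₐ[ZMod p] F) ≃* (F ≃+* F) :=
    { toFun := fun σ => σ.toRingEquiv
      invFun := fun σ => AlgEquiv.ofRingEquiv (f := σ) (fun r =>
        DFunLike.congr_fun (RingHom.ext_zmod ((σ : F →+* F).comp (algebraMap (ZMod p) F))
          (algebraMap (ZMod p) F)) r)
      left_inv := fun σ => by ext x; rfl
      right_inv := fun σ => by ext x; rfl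
      map_mul' := fun σ τ => by ext x; rfl }
  refine ⟨e.isCyclic.1 inferInstance, ?_⟩
  rw [← Nat.card_congr e.toEquiv, IsGalois.card_aut_eq_finrank, Module.card_eq_pow_finrank (K := ZMod p) (V := F),
    ZMod.card]
  exact Nat.lt_pow_self (Fact.out : p.Prime).one_lt

/-- An automorphism of order dividing two of a field, not the identity, has a small fixed field. -/
theorem card_fixed_sq {σ : F ≃+* F} (hσ : σ ≠ 1) :
    Nat.card {x : F // σ x = x} * Nat.card {x : F // σ x = x} ≤ Fintype.card F := by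
  obtain ⟨c, hc⟩ : ∃ c, σ c ≠ c := not_forall.1 fun h => hσ (RingEquiv.ext h)
  rw [← Nat.card_prod, ← Nat.card_eq_fintype_card]
  refine Nat.card_le_card_of_injective (fun ab => ab.1.1 + ab.2.1 * c) ?_
  rintro ⟨⟨a, ha⟩, ⟨b, hb⟩⟩ ⟨⟨a', ha'⟩, ⟨b', hb'⟩⟩ h
  have h' : a + b * c = a' + b' * c := h
  have hbb : b = b' := by
    by_contra hne
    have hc' : c = (a' - a) / (b - b') := by
      rw [eq_div_iff (sub_ne_zero.2 hne)]
      linear_combination h'
    exact hc (by rw [hc', map_div₀, map_sub, map_sub, ha, ha', hb, hb'])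
  subst hbb
  have haa : a = a' := add_right_cancel h'
  subst haa
  rfl

/-- A semilinear map of order dividing `p`, acting quadratically, is linear unless `p = 2`. -/
theorem semi_quadratic {p : ℕ} [Fact p.Prime] (hchar : (p : F) = 0) {g : Equiv.Perm (Fin 2 → F)}
    (hg : g ∈ addPerm F) {σ : F ≃+* F} (hs : SemiFor g σ) (hquad : ∀ v, g (g v - v) = g v - v)
    {z : Fin 2 → F} (hz : g z = z) (hz0 : z ≠ 0) :
    p = 2 ∧ σ * σ = 1 ∨ σ = 1 := by
  haveI : CharP F p := (CharP.charP_iff_prime_eq_zero Fact.out).2 hchar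
  have hδ : ∀ c, σ (σ c - c) = σ c - c := by
    intro c
    have h := hquad (c • z)
    rw [hs, hz, ← sub_smul, hs, hz] at h
    exact smul_left_injective F hz0 h
  by_cases hp : p = 2
  · left
    refine ⟨hp, RingEquiv.ext fun c => ?_⟩
    have h := hδ c
    rw [map_sub] at h
    have h2 : (2 : F) = 0 := by
      have := hchar
      rw [hp] at this
      exact_mod_cast this
    show σ (σ c) = c
    linear_combination h + (σ c - c) * h2
  · right
    refine RingEquiv.ext fun c => sub_eq_zero.1 ?_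
    have h2 : (2 : F) ≠ 0 := fun e => hp ((Nat.prime_dvd_prime_iff_eq Fact.out Nat.prime_two).1
      ((CharP.cast_eq_zero_iff F p 2).1 (by exact_mod_cast e)))
    have h := hδ c
    have h' := hδ (c * c)
    simp only [map_sub, map_mul] at h h'
    have e : (2 : F) * (σ c - c) ^ 2 = 0 := by
      linear_combination h' - (σ (σ c) + 2 * σ c - c) * h
    exact eq_zero_of_pow_eq_zero ((mul_eq_zero.1 e).resolve_left h2)

end Cfsg.Agent.H34.Trans
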