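import Cfsg.Agent.H34.Trans.Seven
import Cfsg.Agent.H25.Burnside
import Mathlib

/-!
A group of additive maps of `F²` containing `SL₂(F)`, whose Sylow subgroups normalise it, normalises it or
is `A₇`.
-/

set_option autoImplicit false
set_option linter.style.haveILetI false

namespace Cfsg.Agent.H34.Trans

open Subgroup
open Cfsg.Agent.H34.MinOffender
open Cfsg.Agent.H34.Para
open scoped Matrix commutatorElement

universe u

variable {F : Type u} [Field F] [Fintype F] {p : ℕ} [Fact p.Prime]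
  {G : Subgroup (Equiv.Perm (Fin 2 → F))}

omit [Fintype F] in
theorem exists_to_e1 {w : Fin 2 → F} (hw : w ≠ 0) :
    ∃ A : Matrix.SpecialLinearGroup (Fin 2) F, (A : Matrix (Fin 2) (Fin 2) F) *ᵥ w = ![1, 0] := by
  by_cases h0 : w 0 = 0
  · have h1 : w 1 ≠ 0 := fun h1 => hw (funext fun i => by fin_cases i <;> assumption)
    refine ⟨⟨!![0, (w 1)⁻¹; -w 1, 0], by simp [Matrix.det_fin_two, h1]⟩, funext fun i => ?_⟩
    fin_cases i <;> simp [Matrix.mulVec, dotProduct, Fin.sum_univ_two, h1, h0]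
  · refine ⟨⟨!![(w 0)⁻¹, 0; -w 1, w 0], by simp [Matrix.det_fin_two, h0]⟩, funext fun i => ?_⟩
    fin_cases i <;> simp [Matrix.mulVec, dotProduct, Fin.sum_univ_two, h0, mul_comm]

omit [Fintype F] in
/-- The opposite root group is a conjugate. -/
theorem lower_mem_cj (x : F) :
    ∃ w : Matrix.SpecialLinearGroup (Fin 2) F, slAct (SL2.lower x) ∈ cj (slAct w) (rootGroup F) := by
  let w : Matrix.SpecialLinearGroup (Fin 2) F := ⟨!![0, -1; 1, 0], by simp [Matrix.det_fin_two]⟩
  refine ⟨w, ⟨slAct (SL2.upper (-x)), upper_mem _, ?_⟩⟩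
  show slAct w * slAct (SL2.upper (-x)) * (slAct w)⁻¹ = slAct (SL2.lower x)
  rw [← map_mul, ← map_inv, ← map_mul]
  congr 1
  refine mul_inv_eq_of_eq_mul (Subtype.ext (Matrix.ext fun i j => ?_))
  rw [Matrix.SpecialLinearGroup.coe_mul, Matrix.SpecialLinearGroup.coe_mul, SL2.coe_upper, SL2.coe_lower]
  fin_cases i <;> fin_cases j <;> simp [w]

/-- If every conjugate root group lies in `SL₂(F)` then it is normalised. -/
theorem normal_of_roots (h : Setup p G) (hall : ∀ g ∈ G, cj g (rootGroup F) ≤ slRange F) {g : Equiv.Perm (Fin 2 → F)}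
    (hg : g ∈ G) : cj g (slRange F) = slRange F := by
  refine eq_of_le_of_card_ge ?_ (card_cj _ _).ge
  rintro _ ⟨_, ⟨A, rfl⟩, rfl⟩
  have := SL2.mem_of_root_groups (S := ((slRange F).comap (MulAut.conj g).toMonoidHom).comap slAct)
    (fun b => hall g hg ⟨_, upper_mem b, rfl⟩) (fun b => ?_) A
  · exact this
  · obtain ⟨w, hw⟩ := lower_mem_cj b
    refine hall (g * slAct w) (G.mul_mem hg (h.hL ⟨w, rfl⟩)) ?_
    rw [Para.cj_mul]
    exact ⟨_, hw, rfl⟩

omit [Fintype F] in
/-- A perfect subgroup of an overgroup of index two lies in the smaller group. -/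
theorem perfect_le_of_index_two {X : Type*} [Group X] {L N M : Subgroup X} (hL : L ≤ N)
    (hidx : (L.subgroupOf N).index = 2) (hM : M ≤ N) (hperf : ⁅M, M⁆ = M) : M ≤ L := by
  rw [← hperf]
  refine commutator_le.2 fun a ha b hb => ?_
  have h : ∀ x y : ↥N, x * y ∈ L.subgroupOf N ↔ (x ∈ L.subgroupOf N ↔ y ∈ L.subgroupOf N) :=
    fun x y => Subgroup.mul_mem_iff_of_index_two hidx
  have key : ∀ x y : ↥N, x * y * x⁻¹ * y⁻¹ ∈ L.subgroupOf N := by
    intro x y
    rw [h, h, h, inv_mem_iff, inv_mem_iff]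
    tauto
  exact key ⟨a, hM ha⟩ ⟨b, hM hb⟩

theorem solvable_perm_three (α : Type*) [Finite α] (h : Nat.card α = 3) :
    Group.IsSolvable (Equiv.Perm α) :=
  Cfsg.Agent.H25.isSolvable_of_card_eq_mul_pow (a := 1) (b := 1) Nat.prime_two Nat.prime_three
    (by rw [Nat.card_perm, h]; rfl)

theorem slRange_perfect (hF : Fintype.card F = 4) : ⁅slRange F, slRange F⁆ = slRange F := by
  classical
  obtain ⟨t, ht0, ht1⟩ : ∃ t : F, t ≠ 0 ∧ t ^ 2 ≠ 1 := by
    by_contra hcon
    push Not at hcon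
    have hsub : (Finset.univ : Finset F) ⊆ {0, 1, -1} := fun t _ => by
      by_cases h0 : t = 0
      · simp [h0]
      · rcases mul_self_eq_one_iff.1 (show t * t = 1 by rw [← sq]; exact hcon t h0) with rfl | rfl <;> simp
    have h1 := (Finset.card_le_card hsub).trans (Finset.card_le_three)
    rw [Finset.card_univ, hF] at h1
    omega
  have h := Matrix.SL2.commutator_eq_top (F := F) ht0 ht1
  rw [show slRange F = (⊤ : Subgroup (Matrix.SpecialLinearGroup (Fin 2) F)).map slAct from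
    (MonoidHom.range_eq_map _)]
  rw [← Subgroup.map_commutator]
  exact congrArg (Subgroup.map slAct) h

/-- The orbit of `(1, 0)` consists of the nonzero vectors. -/
theorem card_eq_stab (h : Setup p G) :
    Nat.card ↥G = (Fintype.card F ^ 2 - 1) *
      Nat.card ↥(G ⊓ MulAction.stabilizer (Equiv.Perm (Fin 2 → F)) (![1, 0] : Fin 2 → F)) := by
  classical
  set e₁ : Fin 2 → F := ![1, 0]
  have h10 : e₁ ≠ 0 := fun e => one_ne_zero (congrFun e 0)
  have horb : MulAction.orbit ↥G e₁ = {v | v ≠ 0} := by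
    ext v
    constructor
    · rintro ⟨g, rfl⟩ e
      exact h10 ((g : Equiv.Perm (Fin 2 → F)).injective (e.trans (addPerm_zero (h.add g.2)).symm))
    · intro hv
      obtain ⟨A, hA⟩ := exists_to_e1 hv
      exact ⟨⟨(slAct A)⁻¹, G.inv_mem (h.hL ⟨A, rfl⟩)⟩, Equiv.Perm.inv_eq_iff_eq.2 hA.symm⟩
  have h1 := MulAction.index_stabilizer ↥G e₁
  rw [horb, show ({v : Fin 2 → F | v ≠ 0}) = ({0}ᶜ : Set (Fin 2 → F)) from rfl, Set.ncard_compl,
    Set.ncard_singleton, Nat.card_eq_fintype_card, Fintype.card_fun, Fintype.card_fin] at h1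
  rw [← (MulAction.stabilizer ↥G e₁).index_mul_card, h1]
  congr 1
  exact Nat.card_congr ⟨fun g => ⟨g.1, g.1.2, g.2⟩, fun g => ⟨⟨g.1, g.2.1⟩, g.2.2⟩, fun _ => rfl, fun _ => rfl⟩

/-- A `2`-subgroup of the normaliser has order at most eight. -/
theorem card_pgroup_normalizer (h : Setup 2 G) (hF : Fintype.card F = 4)
    {S : Subgroup (Equiv.Perm (Fin 2 → F))} (hSG : S ≤ G) (hS : IsPGroup 2 S)
    (hSN : S ≤ normalizer (slRange F : Set (Equiv.Perm (Fin 2 → F)))) : Nat.card ↥S ≤ 8 := by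
  classical
  haveI : Fact (Nat.Prime 2) := ⟨Nat.prime_two⟩
  choose σ hσ using fun y : ↥S => exists_semi (h.add (hSG y.2)) (hSN y.2)
  let π : ↥S →* (F ≃+* F) := MonoidHom.mk' σ fun a b =>
    SemiFor.unique (h.add (hSG (a * b).2)) (hσ (a * b)) ((hσ a).mul (hσ b))
  haveI : Finite (F ≃+* F) := Finite.of_injective (fun e : F ≃+* F => (e : F → F)) DFunLike.coe_injective
  have haut : Nat.card (F ≃+* F) ≤ 2 := by
    haveI : CharP F 2 := (CharP.charP_iff_prime_eq_zero Nat.prime_two).2 h.hchar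
    letI := ZMod.algebra F 2
    have hfr := Module.card_eq_pow_finrank (K := ZMod 2) (V := F)
    rw [hF, ZMod.card] at hfr
    let e : (F ≃ₐ[ZMod 2] F) ≃ (F ≃+* F) :=
      { toFun := fun σ => σ.toRingEquiv
        invFun := fun σ => AlgEquiv.ofRingEquiv (f := σ) (fun r =>
          DFunLike.congr_fun (RingHom.ext_zmod ((σ : F →+* F).comp (algebraMap (ZMod 2) F))
            (algebraMap (ZMod 2) F)) r)
        left_inv := fun σ => by ext x; rfl
        right_inv := fun σ => by ext x; rfl }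
    rw [← Nat.card_congr e, IsGalois.card_aut_eq_finrank]
    exact (Nat.pow_right_injective le_rfl (show 2 ^ Module.finrank (ZMod 2) F = 2 ^ 2 by rw [← hfr])).le
  rw [Subgroup.card_eq_card_quotient_mul_card_subgroup π.ker,
    Nat.card_congr (QuotientGroup.quotientKerEquivRange π).toEquiv]
  calc Nat.card ↥π.range * Nat.card ↥π.ker ≤ 2 * 4 := ?_
    _ = 8 := rfl
  refine Nat.mul_le_mul ((Subgroup.card_le_card_group _).trans haut) ?_
  rw [← Subgroup.card_subtype S π.ker, ← hF]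
  refine card_pGroup_slRange (n := 2) (by norm_num) hF ?_ (hS.to_le (map_subtype_le _))
  rintro _ ⟨y, hy, rfl⟩
  obtain ⟨k, hk⟩ := hS y
  exact mem_slRange_of_linear h.hchar (h.add (hSG y.2)) ((show σ y = 1 from hy) ▸ hσ y) (k := k)
    (by simpa using congrArg Subtype.val hk)

set_option maxHeartbeats 800000 in
/-- The case of the field with four elements. -/
theorem seven (h : Setup 2 G) (hF : Fintype.card F = 4) {g : Equiv.Perm (Fin 2 → F)} (hg : g ∈ G)
    (hgL : ¬ cj g (slRange F) ≤ slRange F) {a : Equiv.Perm (Fin 2 → F)} (ha : a ∈ G) (hae : a ![1, 0] = ![1, 0])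
    (haU : cj a (rootGroup F) ≠ rootGroup F) {T : Subgroup (Equiv.Perm (Fin 2 → F))} (hTG : T ≤ G)
    (hT : IsPGroup 2 T) (hUT : rootGroup F < T) (hTfix : ∀ t ∈ T, t ![1, 0] = (![1, 0] : Fin 2 → F)) :
    Nonempty (↥G ≃* alternatingGroup (Fin 7)) := by
  classical
  haveI : Fact (Nat.Prime 2) := ⟨Nat.prime_two⟩
  set L := slRange F
  obtain ⟨f, hf⟩ := exists_embedding (by exact_mod_cast h.hchar) hF h.add
  set Gv := G ⊓ MulAction.stabilizer (Equiv.Perm (Fin 2 → F)) (![1, 0] : Fin 2 → F)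
  have hcardG : Nat.card ↥G = 15 * Nat.card ↥Gv := by rw [card_eq_stab h, hF]; rfl
  have hG : Nat.card ↥G ∣ 20160 := Cfsg.Agent.H50.AltEight.card_A8 ▸ Subgroup.card_dvd_of_injective f hf
  have hU : Nat.card ↥(rootGroup F) = 4 := by rw [card_rootGroup, Nat.card_eq_fintype_card, hF]
  -- the 2-part
  have hT8 : 8 ∣ Nat.card ↥T := by
    obtain ⟨m, hm⟩ := IsPGroup.iff_card.1 hT
    have hlt : 4 < Nat.card ↥T := hU ▸ (lt_of_le_of_ne (card_le_of_le hUT.le) fun e =>
      hUT.ne (eq_of_le_of_card_ge hUT.le e.ge))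
    rw [hm] at hlt ⊢
    refine (pow_dvd_pow 2 (show 3 ≤ m from ?_) : 2 ^ 3 ∣ 2 ^ m)
    by_contra hm3
    have : 2 ^ m ≤ 2 ^ 2 := Nat.pow_le_pow_right (by norm_num) (by omega)
    omega
  have hTGv : T ≤ Gv := le_inf hTG hTfix
  have h8 : 8 ∣ Nat.card ↥Gv := hT8.trans (Subgroup.card_dvd_of_le hTGv)
  obtain ⟨k, hk⟩ := h8
  have hodd : ¬ 2 ∣ k := by
    intro h2
    obtain ⟨Q, hQ⟩ := Sylow.exists_subgroup_card_pow_prime 2 (G := ↥G) (n := 4) (by
      rw [hcardG, hk]; exact Dvd.dvd.mul_left (show 2 ^ 4 ∣ 8 * k from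
        Nat.mul_dvd_mul_left 8 h2) 15)
    have hQp : IsPGroup 2 ↥(Q.map G.subtype) := (IsPGroup.of_card hQ).map _
    obtain ⟨x, hx, hxN⟩ := h.hsyl _ (map_subtype_le _) hQp
    have := card_pgroup_normalizer h hF (cj_le hx (map_subtype_le _)) (hQp.map _) hxN
    rw [card_cj, Subgroup.card_subtype, hQ] at this
    norm_num at this
  have hk168 : k ∣ 168 := by
    rw [hcardG, hk, show 15 * (8 * k) = 120 * k by ring, show 20160 = 120 * 168 from rfl] at hG
    exact (Nat.mul_dvd_mul_iff_left (by norm_num)).1 hG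
  have hUC : rootGroup F ≤ Gv ∧ cj a (rootGroup F) ≤ Gv := by
    refine ⟨le_inf (rootGroup_le_G h) fun u hu => root_fix hu (by simp [mem_axis]),
      le_inf (cj_le ha (rootGroup_le_G h)) fun u hu => cj_fix hu ?_⟩
    rw [show a⁻¹ ![1, 0] = (![1, 0] : Fin 2 → F) by conv_lhs => rw [← hae]; simp]
    simp [mem_axis]
  have hnp : ∀ X : Subgroup (Equiv.Perm (Fin 2 → F)), X ≤ G → IsPGroup 2 X → rootGroup F ≤ X →
      ¬ cj a (rootGroup F) ≤ X := fun X hX hXp h1 h2 => haU (weak h hX hXp h1 ha h2)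
  have hk4 : k = 1 ∨ k = 3 ∨ k = 7 ∨ k = 21 := by
    have hall : ∀ d ∈ Nat.divisors 168, ¬ 2 ∣ d → d = 1 ∨ d = 3 ∨ d = 7 ∨ d = 21 := by decide +kernel
    exact hall k (Nat.mem_divisors.2 ⟨hk168, by norm_num⟩) hodd
  rcases hk4 with rfl | rfl | rfl | rfl
  · exfalso
    exact hnp Gv inf_le_left (IsPGroup.of_card (n := 3) (by rw [hk]; rfl)) hUC.1 hUC.2
  · -- index three
    exfalso
    refine hgL ?_
    set N := G ⊓ normalizer (L : Set (Equiv.Perm (Fin 2 → F)))
    have hLN : L ≤ N := le_inf h.hL le_normalizer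
    have hLcard : Nat.card ↥L = 60 := by
      show Nat.card ↥(slAct (F := F)).range = 60
      rw [← Nat.card_congr (MonoidHom.ofInjective slAct_injective).toEquiv, Cfsg.Agent.H47.Ree.card_sl_two, hF]; norm_num
    have h120 : 120 ∣ Nat.card ↥N := by
      obtain ⟨x, hx, hxN⟩ := h.hsyl T hTG hT
      have h8N : 8 ∣ Nat.card ↥N := by
        refine dvd_trans ?_ (Subgroup.card_dvd_of_le (le_inf (cj_le hx hTG) hxN : cj x T ≤ N))
        rw [card_cj]
        exact hT8
      have h60 : 60 ∣ Nat.card ↥N := hLcard ▸ Subgroup.card_dvd_of_le hLN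
      exact Nat.lcm_dvd h60 h8N
    have hGcard : Nat.card ↥G = 360 := by rw [hcardG, hk]
    have hNG : Nat.card ↥N ∣ 360 := hGcard ▸ Subgroup.card_dvd_of_le inf_le_left
    have hNne : Nat.card ↥N ≠ 360 := fun e => by
      have hNG' : N = G := eq_of_le_of_card_ge inf_le_left (by rw [e, hGcard])
      exact hgL (cj_eq_of_mem_normalizer (hNG'.ge hg).2).le
    have hN : Nat.card ↥N = 120 := by
      have hall : ∀ d ∈ Nat.divisors 360, 120 ∣ d → d ≠ 360 → d = 120 := by decide +kernel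
      exact hall _ (Nat.mem_divisors.2 ⟨hNG, by norm_num⟩) h120 hNne
    -- the core
    set N' := N.subgroupOf G
    have hN'idx : N'.index = 3 := by
      have := N'.index_mul_card
      rw [Nat.card_congr (subgroupOfEquivOfLe (inf_le_left : N ≤ G)).toEquiv, hN, hGcard] at this
      omega
    set π : ↥G →* Equiv.Perm (↥G ⧸ N') := MulAction.toPermHom ↥G (↥G ⧸ N')
    set K := π.ker
    have hKN : K ≤ N' := fun x hx => by
      have := Equiv.ext_iff.1 (MonoidHom.mem_ker.1 hx) ((1 : ↥G) : ↥G ⧸ N')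
      change ((x * 1 : ↥G) : ↥G ⧸ N') = ((1 : ↥G) : ↥G ⧸ N') at this
      rw [mul_one, QuotientGroup.eq, mul_one] at this
      simpa using N'.inv_mem this
    have hLK : L.subgroupOf G ≤ K := by
      have hperf : ⁅L.subgroupOf G, L.subgroupOf G⁆ = L.subgroupOf G := by
        refine Subgroup.map_injective G.subtype_injective ?_
        rw [Subgroup.map_commutator, map_subgroupOf_eq_of_le h.hL]
        exact slRange_perfect hF
      haveI : Fintype (↥G ⧸ N') := Fintype.ofFinite _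
      have hsol : Group.IsSolvable (Equiv.Perm (↥G ⧸ N')) := by
        have e : Nat.card (↥G ⧸ N') = 3 := hN'idx
        exact solvable_perm_three _ e
      haveI := hsol
      rw [← Subgroup.map_eq_bot_iff]
      by_contra hne
      refine (Group.IsSolvable.commutator_lt_of_ne_bot hne).ne ?_
      rw [← Subgroup.map_commutator, hperf]
    have hMN : cj g L ≤ N := by
      intro y hy
      have hy' : g⁻¹ * y * g ∈ L := mem_cj.1 hy
      have h1 : (⟨g⁻¹ * y * g, h.hL hy'⟩ : ↥G) ∈ K := hLK hy'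
      have h2 := (inferInstance : K.Normal).conj_mem _ h1 ⟨g, hg⟩
      have h3 : g * (g⁻¹ * y * g) * g⁻¹ ∈ N := hKN h2
      simpa [mul_assoc] using h3
    refine perfect_le_of_index_two hLN ?_ hMN ?_
    · have := (L.subgroupOf N).index_mul_card
      rw [Nat.card_congr (subgroupOfEquivOfLe hLN).toEquiv, hLcard, hN] at this
      omega
    · show ⁅L.map _, L.map _⁆ = L.map _
      rw [← Subgroup.map_commutator, slRange_perfect hF]
  · -- order 56
    exfalso
    haveI : Fact (Nat.Prime 7) := ⟨by norm_num⟩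
    have hcard : Nat.card ↥Gv = 56 := hk
    obtain ⟨Q⟩ : Nonempty (Sylow 7 ↥Gv) := inferInstance
    have hQ : Nat.card ↥(Q : Subgroup ↥Gv) = 7 := by
      rw [Q.card_eq_multiplicity, hcard]
      rw [show (56 : ℕ) = 7 ^ 1 * 8 from rfl, Nat.factorization_mul (by norm_num) (by norm_num)]
      simp [Nat.Prime.factorization_self (show Nat.Prime 7 by norm_num),
        Nat.factorization_eq_zero_of_not_dvd (show ¬ 7 ∣ 8 by norm_num)]
    -- inside `A₈`
    let f' : ↥Gv →* Cfsg.Agent.H50.AltEight.A8 := f.comp (Subgroup.inclusion inf_le_left)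
    have hf' : Function.Injective f' := hf.comp (Subgroup.inclusion_injective _)
    have h21 : Nat.card ↥(normalizer ((Q : Subgroup ↥Gv) : Set ↥Gv)) ∣ 21 := by
      refine dvd_trans ?_ (Cfsg.Agent.H50.AltEight.card_normalizer_seven (Q := (Q : Subgroup ↥Gv).map f')
        (by rw [card_map_of_injective hf', hQ]))
      rw [← card_map_of_injective hf' (K := normalizer ((Q : Subgroup ↥Gv) : Set ↥Gv))]
      refine Subgroup.card_dvd_of_le (Subgroup.le_normalizer_map _)
    have hN7 : Nat.card ↥(normalizer ((Q : Subgroup ↥Gv) : Set ↥Gv)) = 7 := by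
      have h56 : Nat.card ↥(normalizer ((Q : Subgroup ↥Gv) : Set ↥Gv)) ∣ 56 :=
        hcard ▸ Subgroup.card_subgroup_dvd_card _
      refine Nat.dvd_antisymm (by simpa using Nat.dvd_gcd h56 h21) ?_
      have e := Subgroup.card_dvd_of_le (le_normalizer (H := (Q : Subgroup ↥Gv)))
      rwa [hQ] at e
    have hNQ : normalizer ((Q : Subgroup ↥Gv) : Set ↥Gv) = (Q : Subgroup ↥Gv) :=
      (eq_of_le_of_card_ge le_normalizer (by rw [hN7, hQ])).symm
    haveI : IsCyclic ↥(Q : Subgroup ↥Gv) := isCyclic_of_prime_card hQ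
    have hc : normalizer ((Q : Subgroup ↥Gv) : Set ↥Gv) ≤ centralizer ((Q : Subgroup ↥Gv) : Set ↥Gv) := by
      rw [hNQ]
      exact le_centralizer_iff_isMulCommutative.2 inferInstance
    have hK := MonoidHom.ker_transferSylow_isComplement' Q hc
    set K := (MonoidHom.transferSylow Q hc).ker
    have hKcard : Nat.card ↥K = 8 := by
      have := hK.card_mul
      rw [hQ, hcard] at this
      omega
    have hmem : ∀ X : Subgroup (Equiv.Perm (Fin 2 → F)), IsPGroup 2 X → X ≤ Gv → X ≤ K.map Gv.subtype := by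
      intro X hX hXG y hy
      refine ⟨⟨y, hXG hy⟩, MonoidHom.mem_ker.2 ?_, rfl⟩
      obtain ⟨m, hm⟩ := hX ⟨y, hy⟩
      have h1 : orderOf (MonoidHom.transferSylow Q hc ⟨y, hXG hy⟩) ∣ 2 ^ m := orderOf_dvd_of_pow_eq_one (by
        rw [← map_pow, show (⟨y, hXG hy⟩ : ↥Gv) ^ 2 ^ m = 1 from Subtype.ext (by
          simpa using congrArg Subtype.val hm), map_one])
      have h2 : orderOf (MonoidHom.transferSylow Q hc ⟨y, hXG hy⟩) ∣ 7 := (_root_.orderOf_dvd_natCard _).trans hQ.dvd
      exact orderOf_eq_one_iff.1 (Nat.dvd_one.1 (by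
        have := Nat.dvd_gcd h1 h2
        rwa [(Nat.Coprime.pow_left m (show Nat.Coprime 2 7 by norm_num)).gcd_eq_one] at this))
    refine hnp (K.map Gv.subtype) ((map_subtype_le _).trans inf_le_left)
      ((IsPGroup.of_card (n := 3) (by rw [hKcard]; rfl)).map _)
      (hmem _ (rootGroup_pgroup h) hUC.1) (hmem _ ((rootGroup_pgroup h).map _) hUC.2)
  · exact alt_seven_of_card f hf (by rw [hcardG, hk])

/-- The dichotomy. -/
theorem normal_or_seven (h : Setup p G) :
    (∀ g ∈ G, cj g (slRange F) = slRange F) ∨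
      (Fintype.card F = 4 ∧ Nonempty (↥G ≃* alternatingGroup (Fin 7))) := by
  by_cases hall : ∀ g ∈ G, cj g (rootGroup F) ≤ slRange F
  · exact Or.inl fun g hg => normal_of_roots h hall hg
  push Not at hall
  obtain ⟨g, hg, hgU⟩ := hall
  have hv : g ![1, 0] ≠ (0 : Fin 2 → F) := fun e =>
    one_ne_zero (congrFun (g.injective (e.trans (addPerm_zero (h.add hg)).symm)) 0)
  obtain ⟨A, hA⟩ := exists_to_e1 hv
  have hA' : slAct A ∈ slRange F := ⟨A, rfl⟩
  set a := slAct A * g
  have ha : a ∈ G := G.mul_mem (h.hL hA') hg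
  have hae : a ![1, 0] = ![1, 0] := hA
  have haU : cj a (rootGroup F) ≠ rootGroup F := by
    intro e
    refine hgU ?_
    have e1 : cj g (rootGroup F) = cj (slAct A)⁻¹ (rootGroup F) := by
      conv_rhs => rw [← e, ← Para.cj_mul]
      simp [a]
    rw [e1]
    exact cj_le (inv_mem hA') rootGroup_le
  obtain ⟨⟨hp, hF⟩, T, hTG, hT, hUT, hTfix⟩ := pair h ha haU (i₀ := ![1, 0])
    (fun e => one_ne_zero (congrFun e 0)) (by simp [mem_axis]) (by
      rw [show a⁻¹ ![1, 0] = (![1, 0] : Fin 2 → F) by conv_lhs => rw [← hae]; simp]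
      simp [mem_axis])
  subst hp
  exact Or.inr ⟨hF, seven h hF hg (fun hle => hgU ((cj_mono g rootGroup_le).trans hle)) ha hae haU hTG hT hUT hTfix⟩

end Cfsg.Agent.H34.Trans
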