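import Cfsg.Agent.H34.Trans.Weak
import Cfsg.Agent.H34.Para.Ext
import Mathlib

/-!
Two root groups with a common fixed point force the field with four elements: otherwise a minimal
overgroup would have an over-offender.
-/

set_option autoImplicit false
set_option linter.style.haveILetI false
set_option maxHeartbeats 1000000

namespace Cfsg.Agent.H34.Trans

open Subgroup
open Cfsg.Agent.H34.MinOffender
open Cfsg.Agent.H34.Para
open scoped Matrix commutatorElement

universe u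

variable {F : Type u} [Field F] [Fintype F] {p : ℕ} [Fact p.Prime]
  {G : Subgroup (Equiv.Perm (Fin 2 → F))}

/-- Translations. -/
def transHom : Multiplicative (Fin 2 → F) →* Equiv.Perm (Fin 2 → F) where
  toFun w := Equiv.addRight (Multiplicative.toAdd w)
  map_one' := Equiv.ext fun v => by simp
  map_mul' a b := Equiv.ext fun v => by simp [add_comm, add_left_comm]

omit [Fintype F] in
theorem transHom_apply (w : Multiplicative (Fin 2 → F)) (v : Fin 2 → F) :
    transHom w v = v + Multiplicative.toAdd w := rfl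

omit [Fintype F] in
theorem transHom_injective : Function.Injective (transHom (F := F)) := fun a b h => by
  have := Equiv.ext_iff.1 h 0
  simpa [transHom_apply] using this

omit [Fintype F] in
theorem semi_inv_mul {a b : Equiv.Perm (Fin 2 → F)} {σ : F ≃+* F} (ha : SemiFor a σ) (hb : SemiFor b σ) :
    SemiFor (a⁻¹ * b) 1 := fun c v => by
  apply a.injective
  show a (a⁻¹ (b (c • v))) = a (c • a⁻¹ (b v))
  rw [ha]
  simp [hb c v]

omit [Fintype F] in
theorem conj_transHom {y : Equiv.Perm (Fin 2 → F)} (hy : y ∈ addPerm F) (w : Multiplicative (Fin 2 → F)) :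
    y * transHom w * y⁻¹ = transHom (Multiplicative.ofAdd (y (Multiplicative.toAdd w))) :=
  Equiv.ext fun v => by
    show y (y⁻¹ v + Multiplicative.toAdd w) = v + y (Multiplicative.toAdd w)
    rw [hy]
    simp

/-- The case of a normal `p`-subgroup of the minimal overgroup: the field has four elements. -/
theorem field_four (h : Setup p G) {P T : Subgroup (Equiv.Perm (Fin 2 → F))} (hPG : P ≤ G)
    (hUT : rootGroup F ≤ T) (hT : IsPGroup p T) (hTG : T ≤ G) (hTN : T ≤ normalizer (rootGroup F : Set _))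
    {k : Equiv.Perm (Fin 2 → F)} (hk : k ∈ P) (hkU : cj k (rootGroup F) ≠ rootGroup F)
    {Q : Subgroup (Equiv.Perm (Fin 2 → F))} (hQne : Q ≠ ⊥) (hPQ : P ≤ normalizer (Q : Set _))
    (hQT : Q ≤ T) (hUP : rootGroup F ≤ P) :
    (p = 2 ∧ Fintype.card F = 4) ∧ ∃ y ∈ T, y ∉ rootGroup F := by
  classical
  set U := rootGroup F
  obtain ⟨x, hx, hxU, hxN⟩ := exists_normalising h hTG hT G.one_mem (by rwa [Para.cj_one])
  rw [Para.cj_one] at hxU
  have hU' : U = cj x T ⊓ slRange F := by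
    have := unique_in h (S := cj x T) (cj_le hx hTG) (hT.map _) hxN (h.add hx) (cj_mono x hUT)
    rwa [hxU] at this
  have hmemU : ∀ {y : Equiv.Perm (Fin 2 → F)}, y ∈ T → x * y * x⁻¹ ∈ slRange F → y ∈ U := by
    intro y hy hy'
    have h1 : x * y * x⁻¹ ∈ cj x U := hxU.symm ▸ hU'.ge ⟨conj_mem_cj hy, hy'⟩
    simpa [mem_cj, mul_assoc] using h1
  have hlin : ∀ {y : Equiv.Perm (Fin 2 → F)}, y ∈ T → SemiFor (x * y * x⁻¹) 1 → y ∈ U := by
    intro y hy hs
    obtain ⟨m, hm⟩ := (hT.map (MulAut.conj x).toMonoidHom) ⟨x * y * x⁻¹, conj_mem_cj hy⟩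
    exact hmemU hy (mem_slRange_of_linear h.hchar (h.add (cj_le hx hTG (conj_mem_cj hy))) hs (k := m)
      (by have e := congrArg Subtype.val hm; rw [Subgroup.coe_pow, Subgroup.coe_one] at e; exact e))
  have hQU : ∀ y ∈ Q, ∀ u ∈ U, y * u * y⁻¹ * u⁻¹ ∈ Q ⊓ U := by
    intro y hy u hu
    refine ⟨?_, U.mul_mem (Cfsg.Agent.H34.conj_mem_of_mem_normalizer (hTN (hQT hy)) hu) (U.inv_mem hu)⟩
    rw [mul_assoc, mul_assoc, ← mul_assoc u]
    exact Q.mul_mem hy (Cfsg.Agent.H34.conj_mem_of_mem_normalizer (hPQ (hUP hu)) (Q.inv_mem hy))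
  have hne : Q ⊓ U ≠ ⊥ := by
    intro hbot
    refine hQne (eq_bot_iff.2 fun y hy => ?_)
    have hyT := hQT hy
    set z := x * y * x⁻¹ with hz
    have hzc : ∀ u ∈ U, z * u = u * z := by
      intro u hu
      have hu' : x⁻¹ * u * x ∈ U := mem_cj.1 (hxU.ge hu)
      have e := hQU y hy _ hu'
      rw [hbot, mem_bot, mul_inv_eq_one, mul_inv_eq_iff_eq_mul] at e
      have := congrArg (fun t => x * t * x⁻¹) e
      simpa [hz, mul_assoc] using this
    have hzG : z ∈ addPerm F := h.add (cj_le hx hTG (conj_mem_cj hyT))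
    obtain ⟨σ, hσ⟩ := exists_semi hzG (hxN (conj_mem_cj hyT))
    -- the coordinates of `z`
    have hcoord : ∀ b : F, σ b * (z ![1, 0]) 0 = (z ![0, 1]) 1 * b := by
      intro b
      have e := Equiv.ext_iff.1 (hzc _ (upper_mem b)) ![0, 1]
      change z (slAct (SL2.upper b) ![0, 1]) = slAct (SL2.upper b) (z ![0, 1]) at e
      have eu : slAct (SL2.upper b) ![0, 1] = b • ![1, 0] + ![0, 1] := by
        rw [slAct_apply]; funext i; fin_cases i <;> simp [Matrix.mulVec, dotProduct, Fin.sum_univ_two]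
      rw [eu, hzG, hσ, slAct_apply] at e
      have := congrFun e 0
      simp [Matrix.mulVec, dotProduct, Fin.sum_univ_two] at this
      linear_combination this
    have hα : (z ![1, 0]) 0 ≠ 0 := by
      intro h0
      have hax : z ![1, 0] ∈ axis F := by
        have hu := upper_mem (F := F) 1
        refine root_fixed hu (fun e => one_ne_zero (α := F) ?_) ?_
        · have := congrFun (Equiv.ext_iff.1 e ![0, 1]) 0
          simpa [slAct_apply, Matrix.mulVec, dotProduct, Fin.sum_univ_two] using this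
        · rw [← Equiv.Perm.mul_apply, ← hzc _ hu, Equiv.Perm.mul_apply, root_fix hu (by simp [mem_axis])]
      have e : z ![1, 0] = 0 := funext fun i => by
        fin_cases i
        · exact h0
        · exact hax
      exact one_ne_zero (congrFun (z.injective (e.trans (addPerm_zero hzG).symm)) 0)
    have hσ1 : σ = 1 := RingEquiv.ext fun b => by
      have h1 := hcoord 1
      rw [map_one, one_mul, mul_one] at h1
      exact mul_right_cancel₀ hα ((hcoord b).trans (by rw [← h1, mul_comm]; rfl))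
    have hyU : y ∈ U := hlin hyT (hσ1 ▸ hσ)
    have : y ∈ Q ⊓ U := ⟨hy, hyU⟩
    rwa [hbot] at this
  -- the part of `Q` in the other root group
  set R := Q ⊓ U with hR
  have hkQ : cj k Q = Q := cj_eq_of_mem_normalizer (hPQ hk)
  have hR'Q : cj k R ≤ Q := (cj_mono k inf_le_left).trans hkQ.le
  have hR'U : ∀ y ∈ cj k R, y ∈ U → y = 1 := by
    intro y hy hyU
    by_contra hy1
    exact hkU (ti h (hPG hk) hyU (cj_mono k inf_le_right hy) hy1)
  choose σ hσ using fun y : ↥(cj k R) =>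
    exists_semi (h.add (cj_le hx hTG (conj_mem_cj (hQT (hR'Q y.2))))) (hxN (conj_mem_cj (hQT (hR'Q y.2))))
  have hσne : ∀ y : ↥(cj k R), (y : Equiv.Perm (Fin 2 → F)) ≠ 1 → σ y ≠ 1 := fun y hy e =>
    hy (hR'U y y.2 (hlin (hQT (hR'Q y.2)) (e ▸ hσ y)))
  have hsq : ∀ y : ↥(cj k R), p = 2 ∧ σ y * σ y = 1 ∨ σ y = 1 := by
    intro y
    have hy2 : x * (y : Equiv.Perm (Fin 2 → F)) * x⁻¹ ∈ cj (x * k) U := by
      rw [Para.cj_mul]; exact conj_mem_cj (cj_mono k inf_le_right y.2)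
    have hxk : x * k ∈ addPerm F := h.add (G.mul_mem hx (hPG hk))
    refine semi_quadratic h.hchar (h.add (cj_le hx hTG (conj_mem_cj (hQT (hR'Q y.2))))) (hσ y)
      (cj_quad hxk hy2) (z := (x * k) ![1, 0]) (cj_fix hy2 (by simp [mem_axis])) fun e => ?_
    exact one_ne_zero (congrFun ((x * k).injective (e.trans (addPerm_zero hxk).symm)) 0)
  obtain ⟨r, hr, hr1⟩ := (bot_or_exists_ne_one R).resolve_left hne
  set y₀ : ↥(cj k R) := ⟨k * r * k⁻¹, conj_mem_cj hr⟩ with hy₀
  have hy₀1 : (y₀ : Equiv.Perm (Fin 2 → F)) ≠ 1 := fun e => hr1 (conj_eq_one_iff.1 e)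
  obtain ⟨hp2, hσ2⟩ := (hsq y₀).resolve_right (hσne y₀ hy₀1)
  subst hp2
  refine ⟨⟨rfl, ?_⟩, y₀, hQT (hR'Q y₀.2), fun hyU => hy₀1 (hR'U _ y₀.2 hyU)⟩
  haveI : Finite (F ≃+* F) := Finite.of_injective (fun e : F ≃+* F => (e : F → F)) DFunLike.coe_injective
  haveI : IsCyclic (F ≃+* F) := (ringAut_small h.hchar).1
  have hR2 : Nat.card ↥R ≤ 2 := by
    rw [← card_cj k R]
    have hinj : Function.Injective fun y : ↥(cj k R) => (⟨σ y, by
        rw [sq]
        rcases hsq y with ⟨-, e⟩ | e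
        · exact e
        · rw [e, mul_one]⟩ : {τ : F ≃+* F // τ ^ 2 = 1}) := by
      intro y z e
      have e' : σ y = σ z := congrArg Subtype.val e
      refine Subtype.ext (inv_mul_eq_one.1 (hR'U _ ((cj k R).mul_mem ((cj k R).inv_mem y.2) z.2) (hlin ?_ ?_)))
      · exact T.mul_mem (T.inv_mem (hQT (hR'Q y.2))) (hQT (hR'Q z.2))
      · rw [show x * ((y : Equiv.Perm (Fin 2 → F))⁻¹ * (z : Equiv.Perm (Fin 2 → F))) * x⁻¹ =
          (x * y * x⁻¹)⁻¹ * (x * z * x⁻¹) by group]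
        exact semi_inv_mul (hσ y) (e'.symm ▸ hσ z)
    refine (Nat.card_le_card_of_injective _ hinj).trans ?_
    haveI := Fintype.ofFinite (F ≃+* F)
    rw [Nat.card_eq_fintype_card, Fintype.card_subtype]
    exact IsCyclic.card_pow_eq_one_le (by norm_num)
  -- the commutator map with the field element
  set z := x * (y₀ : Equiv.Perm (Fin 2 → F)) * x⁻¹ with hz
  have hzG : z ∈ addPerm F := h.add (cj_le hx hTG (conj_mem_cj (hQT (hR'Q y₀.2))))
  have hzs : SemiFor z (σ y₀) := hσ y₀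
  have hzc : ∀ u ∈ U, z * u * z⁻¹ * u⁻¹ ∈ cj x R := by
    intro u hu
    have hu' : x⁻¹ * u * x ∈ U := mem_cj.1 (hxU.ge hu)
    have e := conj_mem_cj (x := x) (hQU y₀ (hR'Q y₀.2) _ hu')
    rwa [show x * ((y₀ : Equiv.Perm (Fin 2 → F)) * (x⁻¹ * u * x) * (y₀ : Equiv.Perm (Fin 2 → F))⁻¹ *
      (x⁻¹ * u * x)⁻¹) * x⁻¹ = z * u * z⁻¹ * u⁻¹ by rw [hz]; group] at e
  clear_value z
  have hUc : ∀ u ∈ U, ∀ v ∈ U, u * v = v * u := by
    rintro _ ⟨a, rfl⟩ _ ⟨b, rfl⟩
    rw [← map_mul, ← map_mul, mul_comm]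
  have hcm : ∀ u ∈ U, z * u * z⁻¹ * u⁻¹ ∈ U := fun u hu => hxU.le (cj_mono x inf_le_right (hzc u hu))
  let φ : ↥U →* ↥(cj x R) := MonoidHom.mk' (fun u => ⟨z * u * z⁻¹ * (u : Equiv.Perm (Fin 2 → F))⁻¹, hzc u u.2⟩)
    fun a b => Subtype.ext (by
      show z * ((a : Equiv.Perm (Fin 2 → F)) * b) * z⁻¹ * ((a : Equiv.Perm (Fin 2 → F)) * b)⁻¹ =
        z * a * z⁻¹ * (a : Equiv.Perm (Fin 2 → F))⁻¹ * (z * b * z⁻¹ * (b : Equiv.Perm (Fin 2 → F))⁻¹)
      rw [mul_inv_rev,
        show z * ((a : Equiv.Perm (Fin 2 → F)) * b) * z⁻¹ * ((b : Equiv.Perm (Fin 2 → F))⁻¹ * (a : Equiv.Perm (Fin 2 → F))⁻¹) =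
          (z * a * z⁻¹) * (z * b * z⁻¹ * (b : Equiv.Perm (Fin 2 → F))⁻¹) * (a : Equiv.Perm (Fin 2 → F))⁻¹ by group,
        mul_assoc (z * a * z⁻¹), hUc _ (hcm b b.2) _ (U.inv_mem a.2), ← mul_assoc])
  have hker : Nat.card ↥φ.ker ≤ Nat.card {b : F // σ y₀ b = b} := by
    have hcoord : ∀ b : F, z * slAct (SL2.upper b) = slAct (SL2.upper b) * z →
        σ y₀ b * (z ![1, 0]) 0 = (z ![0, 1]) 1 * b := by
      intro b e'
      have e := Equiv.ext_iff.1 e' ![0, 1]
      change z (slAct (SL2.upper b) ![0, 1]) = slAct (SL2.upper b) (z ![0, 1]) at e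
      have eu : slAct (SL2.upper b) ![0, 1] = b • ![1, 0] + ![0, 1] := by
        rw [slAct_apply]; funext i; fin_cases i <;> simp [Matrix.mulVec, dotProduct, Fin.sum_univ_two]
      rw [eu, hzG, hzs, slAct_apply] at e
      have := congrFun e 0
      simp [Matrix.mulVec, dotProduct, Fin.sum_univ_two] at this
      linear_combination this
    choose bb hbb using fun u : ↥U => (show ∃ b : F, slAct (SL2.upper b) = (u : Equiv.Perm (Fin 2 → F)) from
      let ⟨b, hb⟩ := u.2; ⟨Multiplicative.toAdd b, hb⟩)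
    have hkcomm : ∀ u : ↥φ.ker, z * ((u : ↥U) : Equiv.Perm (Fin 2 → F)) = ((u : ↥U) : Equiv.Perm (Fin 2 → F)) * z := by
      intro u
      have e := congrArg Subtype.val (MonoidHom.mem_ker.1 u.2)
      exact mul_inv_eq_iff_eq_mul.1 (mul_inv_eq_one.1 e)
    by_cases hall : ∀ u : ↥φ.ker, bb u = 0
    · haveI : Subsingleton ↥φ.ker := ⟨fun a b => Subtype.ext (Subtype.ext (by
        rw [← hbb, ← hbb, hall, hall]))⟩
      haveI : Nonempty {b : F // σ y₀ b = b} := ⟨⟨0, map_zero _⟩⟩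
      exact (Nat.card_le_card_of_injective (fun _ : ↥φ.ker => (Classical.arbitrary _ : {b : F // σ y₀ b = b}))
        fun a b _ => Subsingleton.elim a b)
    push Not at hall
    obtain ⟨u₀, hu₀⟩ := hall
    have hrel : ∀ u : ↥φ.ker, σ y₀ (bb u) * (z ![1, 0]) 0 = (z ![0, 1]) 1 * bb u := fun u =>
      hcoord _ (by rw [hbb]; exact hkcomm u)
    have hα : (z ![1, 0]) 0 ≠ 0 := by
      intro h0
      have hu1 : ((u₀ : ↥U) : Equiv.Perm (Fin 2 → F)) ≠ 1 := fun e => hu₀ (by
        have h1 := congrFun (Equiv.ext_iff.1 ((hbb u₀).trans e) ![0, 1]) 0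
        simpa [slAct_apply, Matrix.mulVec, dotProduct, Fin.sum_univ_two] using h1)
      have hax : z ![1, 0] ∈ axis F := by
        refine root_fixed (u₀ : ↥U).2 hu1 ?_
        rw [← Equiv.Perm.mul_apply, ← hkcomm u₀, Equiv.Perm.mul_apply, root_fix (u₀ : ↥U).2 (by simp [mem_axis])]
      have e : z ![1, 0] = 0 := funext fun i => by
        fin_cases i
        · exact h0
        · exact hax
      exact one_ne_zero (congrFun (z.injective (e.trans (addPerm_zero hzG).symm)) 0)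
    refine Nat.card_le_card_of_injective (fun u => ⟨bb u / bb u₀, ?_⟩) fun a b e => ?_
    · have hs0 : σ y₀ (bb u₀) ≠ 0 := fun e => hu₀ ((σ y₀).injective (e.trans (map_zero _).symm))
      rw [map_div₀, div_eq_div_iff hs0 hu₀]
      refine mul_right_cancel₀ hα ?_
      linear_combination bb u₀ * hrel u - bb u * hrel u₀
    · have e' : bb a = bb b := (div_left_inj' hu₀).1 (congrArg Subtype.val e)
      exact Subtype.ext (Subtype.ext (by rw [← hbb, ← hbb, e']))
  have hcount : Fintype.card F ≤ 2 * Nat.card {b : F // σ y₀ b = b} := by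
    have hU : Nat.card ↥U = Fintype.card F := by rw [card_rootGroup, Nat.card_eq_fintype_card]
    rw [← hU, Subgroup.card_eq_card_quotient_mul_card_subgroup φ.ker,
      Nat.card_congr (QuotientGroup.quotientKerEquivRange φ).toEquiv]
    refine Nat.mul_le_mul ((Subgroup.card_le_card_group _).trans ?_) hker
    rwa [card_cj]
  have hsqle := card_fixed_sq (hσne y₀ hy₀1)
  have hq : Fintype.card F ≤ 4 := by nlinarith
  obtain ⟨n, hn1, hn⟩ := h.hn
  have hn2 : n ≤ 2 := by
    by_contra hgt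
    have : 2 ^ 3 ≤ 2 ^ n := Nat.pow_le_pow_right (by norm_num) (by omega)
    omega
  interval_cases n
  · exfalso
    refine hσne y₀ hy₀1 ?_
    haveI : Subsingleton (F ≃+* F) := Finite.card_le_one_iff_subsingleton.1 (by
      have h2 := (ringAut_small (F := F) h.hchar).2
      rw [hn] at h2
      omega)
    exact Subsingleton.elim _ _
  · rw [hn]; norm_num

/-- Two root groups with a common nonzero fixed point. -/
theorem pair (h : Setup p G) {g : Equiv.Perm (Fin 2 → F)} (hg : g ∈ G)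
    (hne : cj g (rootGroup F) ≠ rootGroup F) {i₀ : Fin 2 → F} (hi0 : i₀ ≠ 0) (hi : i₀ ∈ axis F)
    (hgi : g⁻¹ i₀ ∈ axis F) :
    (p = 2 ∧ Fintype.card F = 4) ∧ ∃ T : Subgroup (Equiv.Perm (Fin 2 → F)), T ≤ G ∧ IsPGroup p ↥T ∧
      rootGroup F < T ∧ ∀ t ∈ T, t i₀ = i₀ := by
  classical
  set U := rootGroup F
  have hUG : U ≤ G := rootGroup_le_G h
  let fixI : Subgroup (Equiv.Perm (Fin 2 → F)) := MulAction.stabilizer _ i₀
  let good : Set (Subgroup (Equiv.Perm (Fin 2 → F))) :=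
    {X | X ≤ G ⊓ fixI ∧ U ≤ X ∧ ∃ k ∈ X, cj k U ≠ U}
  have hpg : ∀ X, X ≤ G → U ≤ X → (∀ k ∈ X, cj k U = U) → ∀ a ∈ G, cj a U ≤ X → cj a U = U := by
    intro X hXG hUX hall a ha haX
    have hp : IsPGroup p ↥(cj a U ⊔ U) := ((rootGroup_pgroup h).map _).to_sup_of_normal_right'
      (rootGroup_pgroup h) fun t ht => mem_normalizer_of_cj_eq (hall t (haX ht))
    exact weak h (sup_le (cj_le ha hUG) hUG) hp le_sup_right ha le_sup_left
  have hgood : (U ⊔ cj g U) ∈ good := by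
    refine ⟨sup_le (le_inf hUG fun u hu => root_fix hu hi) (le_inf (cj_le hg hUG) fun u hu => cj_fix hu hgi),
      le_sup_left, ?_⟩
    by_contra hall
    push Not at hall
    exact hne (hpg _ (sup_le hUG (cj_le hg hUG)) le_sup_left hall g hg le_sup_right)
  obtain ⟨P, ⟨hP, hUP, k, hk, hkU⟩, hmin⟩ :=
    Set.exists_min_image good (fun X => Nat.card X) (Set.toFinite _) ⟨_, hgood⟩
  have hPG : P ≤ G := hP.trans inf_le_left
  have hcover : U ⊔ cj k U = P := by
    have hle : U ⊔ cj k U ≤ P := sup_le hUP (cj_le hk hUP)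
    refine eq_of_le_of_card_ge hle (hmin _ ⟨hle.trans hP, le_sup_left, ?_⟩)
    by_contra hall
    push Not at hall
    exact hkU (hpg _ (hle.trans hPG) le_sup_left hall k (hPG hk) le_sup_right)
  -- a Sylow subgroup of `P`
  obtain ⟨T₀, hT₀⟩ := ((rootGroup_pgroup h).comap_subtype (K := P) : IsPGroup p (U.subgroupOf P)).exists_le_sylow
  set T := (T₀ : Subgroup ↥P).map P.subtype
  have hTp : IsPGroup p ↥T := T₀.2.map _
  have hTP : T ≤ P := map_subtype_le _
  have hUT : U ≤ T := fun u hu => ⟨⟨u, hUP hu⟩, hT₀ hu, rfl⟩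
  have hTN : T ≤ normalizer (U : Set _) := fun t ht => mem_normalizer_of_cj_eq
    (weak h (hTP.trans hPG) hTp hUT (hPG (hTP ht)) (cj_le ht hUT))
  have hsyl : ∀ R ≤ P, IsPGroup p R → T ≤ R → R = T := by
    intro R hRP hR hTR
    have e := T₀.is_maximal' (hR.of_equiv (subgroupOfEquivOfLe hRP).symm)
      fun t ht => hTR ⟨t, ht, rfl⟩
    rw [← map_subgroupOf_eq_of_le hRP, e]
  have hmax : ∀ X ≤ P, T ≤ X → X ≠ P → X ≤ P ⊓ normalizer (U : Set _) := by
    intro X hXP hTX hXne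
    refine le_inf hXP fun t ht => mem_normalizer_of_cj_eq ?_
    by_contra htU
    exact hXne (eq_of_le_of_card_ge hXP (hmin X ⟨hXP.trans hP, hUT.trans hTX, t, ht, htU⟩))
  have pm : PMin p P T (P ⊓ normalizer (U : Set _)) :=
    { hTM := le_inf hTP hTN
      hMP := inf_le_left
      hne := fun e => hkU (cj_eq_of_mem_normalizer (e.ge hk).2)
      Tp := hTp
      syl := hsyl
      max := hmax }
  by_cases hop : ∀ Q ≤ P, IsPGroup p Q → P ≤ normalizer (Q : Set _) → Q = ⊥
  swap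
  · push Not at hop
    obtain ⟨Q, hQP, hQp, hQn, hQne⟩ := hop
    have hQT : Q ≤ T := le_sup_left.trans
      (hsyl _ (sup_le hQP hTP) (hQp.to_sup_of_normal_left' hTp (hTP.trans hQn)) le_sup_right).le
    obtain ⟨hq, y, hyT, hyU⟩ := field_four h hPG hUT hTp (hTP.trans hPG) hTN hk hkU hQne hQn hQT hUP
    exact ⟨hq, T, hTP.trans hPG, hTp, lt_of_le_of_ne hUT fun e => hyU (e.ge hyT), fun t ht => (hP (hTP ht)).2⟩
  exfalso
  -- the module
  have hkA : k ∈ addPerm F := h.add (hPG hk)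
  let fk : (Fin 2 → F) →+ (Fin 2 → F) := AddMonoidHom.mk' k hkA
  let W : AddSubgroup (Fin 2 → F) := (axis F).toAddSubgroup ⊔ (axis F).toAddSubgroup.map fk
  let Vt := (AddSubgroup.toSubgroup W).map transHom
  have hkW : ∀ v, k⁻¹ v ∈ axis F → v ∈ W := fun v hv =>
    AddSubgroup.mem_sup_right ⟨k⁻¹ v, hv, k.apply_symm_apply v⟩
  let St : Subgroup (Equiv.Perm (Fin 2 → F)) :=
    { carrier := {y | y ∈ addPerm F ∧ ∀ v, y v - v ∈ W}
      one_mem' := ⟨one_mem _, fun v => by simp [W.zero_mem]⟩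
      mul_mem' := fun {a b} ha hb => ⟨mul_mem ha.1 hb.1, fun v => by
        rw [Equiv.Perm.mul_apply, show a (b v) - v = (a (b v) - b v) + (b v - v) by abel]
        exact W.add_mem (ha.2 _) (hb.2 _)⟩
      inv_mem' := fun {a} ha => ⟨inv_mem ha.1, fun v => by
        have := W.neg_mem (ha.2 (a⁻¹ v))
        simpa using this⟩ }
  have hPSt : P ≤ St := by
    rw [← hcover]
    exact sup_le (fun u hu => ⟨h.add (hUG hu), fun v => AddSubgroup.mem_sup_left (root_sub hu v)⟩)
      fun u hu => ⟨h.add (cj_le (hPG hk) hUG hu), fun v => hkW _ (cj_sub hkA hu v)⟩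
  have hmemVt : ∀ {t}, t ∈ Vt ↔ ∃ w ∈ W, transHom (Multiplicative.ofAdd w) = t := fun {t} => Iff.rfl
  have hconj : ∀ y ∈ P, ∀ t ∈ Vt, y * t * y⁻¹ ∈ Vt := by
    intro y hy t ht
    obtain ⟨w, hw, rfl⟩ := hmemVt.1 ht
    rw [conj_transHom (h.add (hPG hy))]
    refine hmemVt.2 ⟨y w, ?_, rfl⟩
    simpa using W.add_mem ((hPSt hy).2 w) hw
  have hPV : P ≤ normalizer (Vt : Set _) := fun y hy => mem_normalizer_of_cj_eq
    (eq_of_le_of_card_ge (by rintro _ ⟨t, ht, rfl⟩; exact hconj y hy t ht) (card_cj _ _).ge)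
  have hcomm : ∀ a ∈ Vt, ∀ b ∈ Vt, a * b = b * a := by
    rintro _ ⟨a, -, rfl⟩ _ ⟨b, -, rfl⟩
    rw [← map_mul, ← map_mul, mul_comm]
  have hexp : ∀ a ∈ Vt, a ^ p = 1 := by
    rintro _ ⟨a, -, rfl⟩
    rw [← map_pow, show a ^ p = 1 from Multiplicative.toAdd.injective (by
      rw [toAdd_pow, toAdd_one, ← Nat.cast_smul_eq_nsmul F, h.hchar, zero_smul]), map_one]
  have hcent : ∀ {y}, y ∈ P → ∀ w ∈ W, (transHom (Multiplicative.ofAdd w) * y =
      y * transHom (Multiplicative.ofAdd w) ↔ y w = w) := by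
    intro y hy w _
    constructor
    · intro e
      have := Equiv.ext_iff.1 e 0
      simpa [transHom_apply, addPerm_zero (h.add (hPG hy))] using this.symm
    · intro e
      refine Equiv.ext fun v => ?_
      show y v + w = y (v + w)
      rw [h.add (hPG hy), e]
  have hfaith : P ⊓ centralizer (Vt : Set _) = ⊥ := by
    refine hop _ inf_le_left ((seriesStab_pgroup h W).to_le fun y hy => ⟨h.add (hPG hy.1),
      fun w hw => (hcent hy.1 w hw).1 (mem_centralizer_iff.1 hy.2 _ (hmemVt.2 ⟨w, hw, rfl⟩)),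
      (hPSt hy.1).2⟩) fun y hy => mem_normalizer_of_cj_eq (eq_of_le_of_card_ge ?_ (card_cj _ _).ge)
    rintro _ ⟨z, hz, rfl⟩
    refine ⟨P.mul_mem (P.mul_mem hy hz.1) (P.inv_mem hy), ?_⟩
    show y * z * y⁻¹ ∈ centralizer (Vt : Set _)
    rw [mem_centralizer_iff]
    intro t ht
    have e := mem_centralizer_iff.1 hz.2 _ (hconj y⁻¹ (P.inv_mem hy) t ht)
    rw [inv_inv] at e
    calc t * (y * z * y⁻¹) = y * ((y⁻¹ * t * y) * z) * y⁻¹ := by group
      _ = y * (z * (y⁻¹ * t * y)) * y⁻¹ := by rw [e]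
      _ = y * z * y⁻¹ * t := by group
  have hcardW : Nat.card ↥Vt < Fintype.card F * Fintype.card F := by
    have hZ : Nat.card ↥(axis F).toAddSubgroup = Fintype.card F := by
      rw [← Nat.card_eq_fintype_card]
      refine Nat.card_congr ⟨fun v => v.1 0, fun c => ⟨![c, 0], by simp [mem_axis]⟩, fun v => ?_, fun c => rfl⟩
      refine Subtype.ext (funext fun i => ?_)
      fin_cases i
      · rfl
      · exact v.2.symm
    rw [← hZ, ← Nat.card_prod]
    have hk0 : k⁻¹ i₀ ∈ axis F := by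
      have : k i₀ = i₀ := (hP hk).2
      rw [show k⁻¹ i₀ = i₀ by conv_lhs => rw [← this]; simp]
      exact hi
    let f : ↥(axis F).toAddSubgroup × ↥(axis F).toAddSubgroup → ↥Vt := fun ab =>
      ⟨transHom (Multiplicative.ofAdd ((ab.1 : Fin 2 → F) + k ab.2)), hmemVt.2 ⟨_,
        W.add_mem (AddSubgroup.mem_sup_left ab.1.2) (AddSubgroup.mem_sup_right ⟨_, ab.2.2, rfl⟩), rfl⟩⟩
    have hs : Function.Surjective f := by
      rintro ⟨t, ht⟩
      obtain ⟨w, hw, rfl⟩ := hmemVt.1 ht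
      obtain ⟨a, ha, b, hb, rfl⟩ := AddSubgroup.mem_sup.1 hw
      obtain ⟨b', hb', rfl⟩ := hb
      exact ⟨(⟨a, ha⟩, ⟨b', hb'⟩), rfl⟩
    have hni : ¬ Function.Injective f := fun hinj => by
      have := @hinj (⟨i₀, hi⟩, 0) (0, ⟨k⁻¹ i₀, hk0⟩) (Subtype.ext (by
        show transHom (Multiplicative.ofAdd (i₀ + k 0)) = transHom (Multiplicative.ofAdd (0 + k (k⁻¹ i₀)))
        rw [addPerm_zero hkA, add_zero, zero_add]
        simp))
      exact hi0 (congrArg (fun ab : ↥(axis F).toAddSubgroup × ↥(axis F).toAddSubgroup => (ab.1 : Fin 2 → F)) this)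
    haveI := Fintype.ofFinite ↥(axis F).toAddSubgroup
    haveI := Fintype.ofFinite ↥Vt
    rw [Nat.card_eq_fintype_card, Nat.card_eq_fintype_card]
    exact Fintype.card_lt_of_surjective_not_injective f hs hni
  have hUfix : Fintype.card F ≤ Nat.card ↥(Vt ⊓ centralizer (U : Set _)) := by
    rw [← Nat.card_eq_fintype_card]
    refine Nat.card_le_card_of_injective (fun c => ⟨transHom (Multiplicative.ofAdd ![c, 0]),
      hmemVt.2 ⟨_, AddSubgroup.mem_sup_left (by simp [mem_axis]), rfl⟩, ?_⟩) fun a b e => ?_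
    · show transHom (Multiplicative.ofAdd ![c, 0]) ∈ centralizer (U : Set _)
      rw [mem_centralizer_iff]
      intro u hu
      exact ((hcent (hUP hu) _ (AddSubgroup.mem_sup_left (by simp [mem_axis]))).2
        (root_fix hu (by simp [mem_axis]))).symm
    · have := transHom_injective (congrArg Subtype.val e)
      simpa using congrFun (Multiplicative.ofAdd.injective this) 0
  have hUcard : Nat.card ↥U = Fintype.card F := by rw [card_rootGroup, Nat.card_eq_fintype_card]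
  have hUlarge : Nat.card ↥Vt < Nat.card ↥U * Nat.card ↥(Vt ⊓ centralizer (U : Set _)) :=
    hcardW.trans_le (by rw [hUcard]; exact Nat.mul_le_mul_left _ hUfix)
  have hUc : ∀ a ∈ U, ∀ b ∈ U, a * b = b * a := by
    rintro _ ⟨a, rfl⟩ _ ⟨b, rfl⟩
    rw [← map_mul, ← map_mul, mul_comm]
  have hUe : ∀ a ∈ U, a ^ p = 1 := fun a ha => seriesStab_pow h.hchar (W := (axis F).toAddSubgroup)
    ⟨h.add (hUG ha), fun v hv => root_fix ha hv, fun v => root_sub ha v⟩
  -- a best offender inside the root group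
  obtain ⟨A, hAU, hAmax⟩ := Set.exists_max_image {A : Subgroup (Equiv.Perm (Fin 2 → F)) | A ≤ U}
    (fun A => Nat.card A * Nat.card ↥(Vt ⊓ centralizer (A : Set _))) (Set.toFinite _) ⟨U, show U ≤ U from le_rfl⟩
  have hAne : A ≠ ⊥ := by
    rintro rfl
    have h1 : Nat.card ↥U * Nat.card ↥(Vt ⊓ centralizer (U : Set _)) ≤ _ := hAmax U (show U ≤ U from le_rfl)
    rw [card_bot, one_mul] at h1
    exact absurd (h1.trans (card_le_of_le inf_le_left)) (not_le.2 hUlarge)
  have hz := fixed_moved hcomm hexp hPV hfaith pm hop (hAU.trans hUP) hAne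
    (fun a ha b hb => hUc a (hAU ha) b (hAU hb)) (fun a ha => hUe a (hAU ha))
    fun B hB => hAmax B (hB.trans hAU)
  have hffp : FFP p Vt P T (P ⊓ normalizer (U : Set _)) := ⟨hcomm, hexp, hPV, hfaith, pm, hop, hz⟩
  exact absurd (hffp.bound hUP hUc hUe) (not_le.2 hUlarge)

end Cfsg.Agent.H34.Trans
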