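import Cfsg.Agent.H34.Trans.Pair
import Cfsg.Agent.H50.AltEight.Sylow
import Cfsg.Agent.H63.GLFourTwo
import Mathlib

/-!
The field with four elements: the group has index eight in `GL₄(2) ≅ A₈`.
-/

set_option autoImplicit false
set_option linter.style.haveILetI false

namespace Cfsg.Agent.H34.Trans

open Subgroup
open Cfsg.Agent.H34.MinOffender
open Cfsg.Agent.H50.AltEight (A8)

universe u

/-- A subgroup of `A₈` of order `2520` is `A₇`. -/
theorem alt_seven_of_card {H : Type*} [Group H] [Finite H] (f : H →* A8) (hf : Function.Injective f)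
    (hH : Nat.card H = 2520) : Nonempty (H ≃* alternatingGroup (Fin 7)) := by
  classical
  haveI := Cfsg.Agent.H50.AltEight.isSimple_A8
  set K := f.range with hKdef
  have hK : Nat.card ↥K = 2520 := by rw [hKdef, ← Nat.card_congr (MonoidHom.ofInjective hf).toEquiv, hH]
  have hidx : K.index = 8 := by
    have := K.index_mul_card
    rw [hK, Cfsg.Agent.H50.AltEight.card_A8] at this
    omega
  let φ : A8 →* Equiv.Perm (A8 ⧸ K) := MulAction.toPermHom A8 (A8 ⧸ K)
  have hφ : Function.Injective φ := by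
    rcases IsSimpleGroup.eq_bot_or_eq_top_of_normal φ.ker inferInstance with h | h
    · exact (MonoidHom.ker_eq_bot_iff φ).1 h
    · exfalso
      have hle : (⊤ : Subgroup A8) ≤ K := by
        rw [← h]
        intro a ha
        have := Equiv.ext_iff.1 (MonoidHom.mem_ker.1 ha) ((1 : A8) : A8 ⧸ K)
        change ((a * 1 : A8) : A8 ⧸ K) = ((1 : A8) : A8 ⧸ K) at this
        rw [mul_one, QuotientGroup.eq, mul_one] at this
        simpa using K.inv_mem this
      rw [top_le_iff.1 hle, index_top] at hidx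
      omega
  let X := {x : A8 ⧸ K // x ≠ ((1 : A8) : A8 ⧸ K)}
  have hfix : ∀ a ∈ K, ∀ x : A8 ⧸ K, x ≠ ((1 : A8) : A8 ⧸ K) ↔ φ a x ≠ ((1 : A8) : A8 ⧸ K) := by
    intro a ha x
    have h1 : φ a ((1 : A8) : A8 ⧸ K) = ((1 : A8) : A8 ⧸ K) := by
      show ((a * 1 : A8) : A8 ⧸ K) = _
      rw [mul_one, QuotientGroup.eq, mul_one]
      exact K.inv_mem ha
    conv_rhs => rw [← h1]
    exact ((φ a).injective.ne_iff).symm
  let ψ : H →* Equiv.Perm X :=
    { toFun := fun k => (φ (f k)).subtypePerm (fun x => (hfix _ ⟨k, rfl⟩ x).symm)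
      map_one' := Equiv.ext fun x => Subtype.ext (by simp [φ])
      map_mul' := fun a b => Equiv.ext fun x => Subtype.ext (by simp [φ, mul_smul]) }
  have hψ : Function.Injective ψ := by
    intro a b e
    refine hf (hφ (Equiv.ext fun x => ?_))
    by_cases hx : x = ((1 : A8) : A8 ⧸ K)
    · subst hx
      show ((f a * 1 : A8) : A8 ⧸ K) = ((f b * 1 : A8) : A8 ⧸ K)
      rw [mul_one, mul_one, QuotientGroup.eq]
      exact K.mul_mem (K.inv_mem ⟨a, rfl⟩) ⟨b, rfl⟩
    · exact congrArg Subtype.val (Equiv.ext_iff.1 e ⟨x, hx⟩)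
  have hX : Nat.card X = 7 := by
    haveI := Fintype.ofFinite (A8 ⧸ K)
    rw [Nat.card_eq_fintype_card, Fintype.card_subtype_compl, Fintype.card_subtype_eq,
      ← Nat.card_eq_fintype_card]
    rw [Subgroup.index] at hidx
    rw [hidx]
  haveI : Finite X := inferInstance
  let eX : X ≃ Fin 7 := (Finite.equivFinOfCardEq hX)
  let ψ' : H →* Equiv.Perm (Fin 7) := eX.permCongrHom.toMonoidHom.comp ψ
  have hψ' : Function.Injective ψ' := eX.permCongrHom.injective.comp hψ
  have hr : ψ'.range = alternatingGroup (Fin 7) := by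
    apply Equiv.Perm.eq_alternatingGroup_of_index_eq_two
    have h := Subgroup.index_mul_card ψ'.range
    rw [← Nat.card_congr (MonoidHom.ofInjective hψ').toEquiv, hH, Nat.card_perm, Nat.card_fin,
      show Nat.factorial 7 = 5040 from rfl] at h
    omega
  exact ⟨(MonoidHom.ofInjective hψ').trans (MulEquiv.subgroupCongr hr)⟩

variable {F : Type u} [Field F] [Fintype F]

/-- Additive maps over the field with four elements embed into `A₈`. -/
theorem exists_embedding (hchar : (2 : F) = 0) (hF : Fintype.card F = 4)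
    {G : Subgroup (Equiv.Perm (Fin 2 → F))} (hadd : G ≤ addPerm F) :
    ∃ f : ↥G →* A8, Function.Injective f := by
  haveI : CharP F 2 := (CharP.charP_iff_prime_eq_zero Nat.prime_two).2 (by exact_mod_cast hchar)
  letI : Algebra (ZMod 2) F := ZMod.algebra F 2
  have hfr : Module.finrank (ZMod 2) (Fin 2 → F) = 4 := by
    have h := Module.card_eq_pow_finrank (K := ZMod 2) (V := Fin 2 → F)
    rw [Fintype.card_fun, Fintype.card_fin, hF, ZMod.card] at h
    exact Nat.pow_right_injective le_rfl (show 2 ^ Module.finrank (ZMod 2) (Fin 2 → F) = 2 ^ 4 by rw [← h]; rfl)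
  let b := Module.finBasisOfFinrankEq (ZMod 2) (Fin 2 → F) hfr
  let lin : ↥G →* Module.End (ZMod 2) (Fin 2 → F) :=
    { toFun := fun g => (AddMonoidHom.mk' (g : Equiv.Perm (Fin 2 → F)) (hadd g.2)).toZModLinearMap 2
      map_one' := rfl
      map_mul' := fun _ _ => rfl }
  let tm : Module.End (ZMod 2) (Fin 2 → F) →* Matrix (Fin 4) (Fin 4) (ZMod 2) :=
    (LinearMap.toMatrixAlgEquiv b).toMonoidHom
  let u : ↥G →* GL (Fin 4) (ZMod 2) := (tm.comp lin).toHomUnits
  have hu : Function.Injective u := by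
    intro g k e
    have e1 : lin g = lin k := (LinearMap.toMatrixAlgEquiv b).injective (congrArg Units.val e)
    exact Subtype.ext (Equiv.ext fun v => LinearMap.congr_fun e1 v)
  obtain ⟨e⟩ := Cfsg.Agent.H63.nonempty_mulEquiv_gl_four_two
  exact ⟨e.toMonoidHom.comp u, e.injective.comp hu⟩

end Cfsg.Agent.H34.Trans
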