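import Cfsg.Prelude.Def_LocalEven
import Cfsg.Agent.H34.Trans.Main
import Mathlib

/-!
Overgroups of `SL₂(F)` on its natural module, in an ambient group.
-/

set_option autoImplicit false
set_option linter.style.haveILetI false

namespace Cfsg.Agent.H34.Trans

open Subgroup
open Cfsg.Agent.H34.MinOffender
open scoped Matrix

/-- The overgroup theorem. -/
theorem natural_overgroup {X : Type*} [Group X] [Finite X] {p : ℕ} [Fact p.Prime] (F : Type) [Field F]
    [Fintype F] [CharP F p] (V G L : Subgroup X) (hV : Cfsg.IsElementaryAbelian p V)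
    (hGV : G ≤ normalizer (V : Set X)) (hfaith : G ⊓ centralizer (V : Set X) = ⊥) (hLG : L ≤ G)
    (hnat : Cfsg.IsNaturalSL2Module F V L) (hLiso : Nonempty (↥L ≃* Matrix.SpecialLinearGroup (Fin 2) F))
    (hSyl : ∀ S : Sylow p ↥(G ⊓ normalizer (L : Set X)), ∀ P : Sylow p ↥G, Nat.card S = Nat.card P) :
    (L.subgroupOf G).Normal ∨ (Fintype.card F = 4 ∧ Nonempty (↥G ≃* ↥(alternatingGroup (Fin 7)))) := by
  classical
  obtain ⟨-, ρ, ψ, hρs, -, hact⟩ := hnat
  haveI := hV.1
  let cf : ↥G → ↥V → ↥V := fun g v =>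
    ⟨(g : X) * v * (g : X)⁻¹, Cfsg.Agent.H34.conj_mem_of_mem_normalizer (hGV g.2) v.2⟩
  have hcf_mul : ∀ g k v, cf (g * k) v = cf g (cf k v) := fun g k v =>
    Subtype.ext (by simp [cf, mul_assoc])
  have hcf_one : ∀ v, cf 1 v = v := fun v => Subtype.ext (by simp [cf])
  let tf : ↥G → (Fin 2 → F) → (Fin 2 → F) := fun g w => ψ (Additive.ofMul (cf g (Additive.toMul (ψ.symm w))))
  have htf : ∀ g (v : ↥V), tf g (ψ (Additive.ofMul v)) = ψ (Additive.ofMul (cf g v)) := fun g v => by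
    simp [tf]
  have htmul : ∀ g k w, tf (g * k) w = tf g (tf k w) := fun g k w => by
    simp [tf, hcf_mul]
  have htone : ∀ w, tf 1 w = w := fun w => by simp [tf, hcf_one]
  let τ : ↥G →* Equiv.Perm (Fin 2 → F) := MonoidHom.mk'
    (fun g => ⟨tf g, tf g⁻¹, fun w => by rw [← htmul, inv_mul_cancel, htone],
      fun w => by rw [← htmul, mul_inv_cancel, htone]⟩)
    (fun g k => Equiv.ext fun w => htmul g k w)
  have hτadd : τ.range ≤ addPerm F := by
    rintro _ ⟨g, rfl⟩ v w
    show tf g (v + w) = tf g v + tf g w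
    have : ∀ a b : ↥V, cf g (a * b) = cf g a * cf g b := fun a b => Subtype.ext (by simp [cf, mul_assoc])
    simp [tf, map_add, this, ofMul_mul]
  have hτinj : Function.Injective τ := by
    refine (injective_iff_map_eq_one τ).2 fun g hg => Subtype.ext ?_
    rw [OneMemClass.coe_one, ← mem_bot, ← hfaith]
    refine ⟨g.2, mem_centralizer_iff.2 fun v hv => ?_⟩
    have h1 := Equiv.ext_iff.1 hg (ψ (Additive.ofMul ⟨v, hv⟩))
    change tf g _ = _ at h1
    rw [htf] at h1
    have h2 := congrArg Subtype.val (Additive.ofMul.injective (ψ.injective h1))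
    change (g : X) * v * (g : X)⁻¹ = v at h2
    conv_lhs => rw [← h2]
    group
  have hτL : ∀ l : ↥L, τ ⟨l, hLG l.2⟩ = slAct (ρ l) := by
    intro l
    refine Equiv.ext fun w => ?_
    obtain ⟨v, rfl⟩ := ψ.surjective w
    obtain ⟨v, rfl⟩ := Additive.ofMul.surjective v
    obtain ⟨w', hw', hwa⟩ := hact l v
    show tf _ _ = _
    rw [htf, slAct_apply, ← hwa]
    exact congrArg (fun u => ψ (Additive.ofMul u)) (Subtype.ext hw'.symm)
  have hLimg : (L.subgroupOf G).map τ = slRange F := by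
    ext y
    constructor
    · rintro ⟨g, hg, rfl⟩
      exact ⟨ρ ⟨g, hg⟩, (hτL ⟨g, hg⟩).symm⟩
    · rintro ⟨A, rfl⟩
      obtain ⟨l, rfl⟩ := hρs A
      exact ⟨⟨l, hLG l.2⟩, l.2, hτL l⟩
  have hnorm : ∀ g : ↥G, (g : X) ∈ normalizer (L : Set X) →
      τ g ∈ normalizer (slRange F : Set (Equiv.Perm (Fin 2 → F))) := by
    intro g hg
    rw [← hLimg]
    refine Subgroup.le_normalizer_map τ ⟨g, ?_, rfl⟩
    rw [SetLike.mem_coe, mem_normalizer_iff]
    intro k
    simp only [mem_subgroupOf, coe_mul, coe_inv]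
    exact mem_normalizer_iff.1 hg k
  obtain ⟨n, hn0, hn⟩ := FiniteField.card F p
  have h : Setup p τ.range :=
    { hchar := CharP.cast_eq_zero F p
      hn := ⟨n, by have := (n : ℕ+).pos; exact this, hn⟩
      add := hτadd
      hL := by rw [← hLimg]; exact map_le_range _ _
      hsyl := by
        intro S hS hSp
        set N := G ⊓ normalizer (L : Set X)
        obtain ⟨S₁⟩ : Nonempty (Sylow p ↥N) := inferInstance
        let S' : Subgroup ↥G := (S₁ : Subgroup ↥N).map (inclusion (inf_le_left : N ≤ G))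
        have hS' : IsPGroup p ↥S' := S₁.2.map _
        obtain ⟨P₁, hP₁⟩ := hS'.exists_le_sylow
        have hP : S' = (P₁ : Subgroup ↥G) := eq_of_le_of_card_ge hP₁ (by
          rw [card_map_of_injective (inclusion_injective _)]
          exact (hSyl S₁ P₁).ge)
        obtain ⟨P₂, hP₂⟩ := (hSp.comap_of_injective τ hτinj).exists_le_sylow
        obtain ⟨x, hx⟩ := MulAction.exists_smul_eq ↥G P₂ P₁
        refine ⟨τ x, ⟨x, rfl⟩, ?_⟩
        rintro _ ⟨y, hy, rfl⟩
        obtain ⟨k, rfl⟩ := hS hy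
        have hk : x * k * x⁻¹ ∈ (P₁ : Subgroup ↥G) := by
          rw [← hx, Sylow.coe_subgroup_smul]
          exact ⟨k, hP₂ hy, rfl⟩
        rw [← hP] at hk
        obtain ⟨z, -, hz⟩ := hk
        have hzN : ((x * k * x⁻¹ : ↥G) : X) ∈ normalizer (L : Set X) := by
          rw [← hz]; exact z.2.2
        have := hnorm _ hzN
        simpa using this }
  rcases normal_or_seven h with hnor | ⟨hF, ⟨e⟩⟩
  · refine Or.inl ⟨fun l hl g => ?_⟩
    have h1 : τ (g * l * g⁻¹) ∈ (L.subgroupOf G).map τ := by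
      rw [hLimg, ← hnor (τ g) ⟨g, rfl⟩, map_mul, map_mul, map_inv]
      exact conj_mem_cj (hLimg.le ⟨l, hl, rfl⟩)
    obtain ⟨k, hk, he⟩ := h1
    exact hτinj he ▸ hk
  · exact Or.inr ⟨hF, ⟨(MonoidHom.ofInjective hτinj).trans e⟩⟩

end Cfsg.Agent.H34.Trans
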