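import Cfsg.Agent.H34.Trans.Basic
import Cfsg.Agent.H34.Para.LLemma
import Mathlib

/-!
Conjugates of the root group: weak closure, trivial intersections and the transvection properties.
-/

set_option autoImplicit false
set_option linter.style.haveILetI false
set_option linter.unusedSectionVars false

namespace Cfsg.Agent.H34.Trans

open Subgroup
open Cfsg.Agent.H34.MinOffender
open Cfsg.Agent.H34.Para
open scoped Matrix

variable {F : Type*} [Field F] [Fintype F] {p : ℕ} [Fact p.Prime]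
  {G : Subgroup (Equiv.Perm (Fin 2 → F))}

/-- The setting: a group of additive maps containing `SL₂(F)` whose Sylow subgroups normalise a conjugate
of it. -/
structure Setup (p : ℕ) (G : Subgroup (Equiv.Perm (Fin 2 → F))) : Prop where
  hchar : (p : F) = 0
  hn : ∃ n, 1 ≤ n ∧ Fintype.card F = p ^ n
  add : G ≤ addPerm F
  hL : slRange F ≤ G
  hsyl : ∀ S ≤ G, IsPGroup p S → ∃ x ∈ G, cj x S ≤ normalizer (slRange F : Set (Equiv.Perm (Fin 2 → F)))

theorem cj_sub {g y : Equiv.Perm (Fin 2 → F)} (hg : g ∈ addPerm F) (hy : y ∈ cj g (rootGroup F))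
    (v : Fin 2 → F) : g⁻¹ (y v - v) ∈ axis F := by
  rw [mem_cj] at hy
  have h := root_sub hy (g⁻¹ v)
  simpa [addPerm_sub ((addPerm F).inv_mem hg)] using h

theorem cj_fix {g y : Equiv.Perm (Fin 2 → F)} (hy : y ∈ cj g (rootGroup F)) {v : Fin 2 → F}
    (hv : g⁻¹ v ∈ axis F) : y v = v := by
  rw [mem_cj] at hy
  have h := congrArg g (root_fix hy hv)
  simpa using h

theorem cj_fixed {g y : Equiv.Perm (Fin 2 → F)} (hy : y ∈ cj g (rootGroup F)) (h1 : y ≠ 1)
    {v : Fin 2 → F} (hv : y v = v) : g⁻¹ v ∈ axis F := by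
  rw [mem_cj] at hy
  refine root_fixed hy (fun e => h1 ?_) (by simp [hv])
  have := congrArg (fun t => g * t * g⁻¹) e
  simpa [mul_assoc] using this

theorem cj_quad {g y : Equiv.Perm (Fin 2 → F)} (hg : g ∈ addPerm F) (hy : y ∈ cj g (rootGroup F))
    (v : Fin 2 → F) : y (y v - v) = y v - v :=
  cj_fix hy (cj_sub hg hy v)

theorem card_cj_root (g : Equiv.Perm (Fin 2 → F)) : Nat.card ↥(cj g (rootGroup F)) = Fintype.card F := by
  rw [card_cj, card_rootGroup, Nat.card_eq_fintype_card]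

theorem root_ne_bot : rootGroup F ≠ ⊥ := fun e => by
  have h := card_cj_root (F := F) 1
  rw [Para.cj_one, e, card_bot] at h
  exact Fintype.one_lt_card.ne h

theorem rootGroup_pgroup (h : Setup p G) : IsPGroup p ↥(rootGroup F) := by
  obtain ⟨n, -, hn⟩ := h.hn
  exact IsPGroup.of_card (n := n) (by rw [card_rootGroup, Nat.card_eq_fintype_card, hn])

theorem rootGroup_le_G (h : Setup p G) : rootGroup F ≤ G := rootGroup_le.trans h.hL

/-- The stabiliser of a series. -/
def seriesStab (W : AddSubgroup (Fin 2 → F)) : Subgroup (Equiv.Perm (Fin 2 → F)) where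
  carrier := {g | g ∈ addPerm F ∧ (∀ v ∈ W, g v = v) ∧ ∀ v, g v - v ∈ W}
  one_mem' := ⟨one_mem _, fun _ _ => rfl, fun v => by simp [W.zero_mem]⟩
  mul_mem' := fun {a b} ⟨a1, a2, a3⟩ ⟨b1, b2, b3⟩ => ⟨mul_mem a1 b1, fun v hv => by
    rw [Equiv.Perm.mul_apply, b2 v hv, a2 v hv], fun v => by
    rw [Equiv.Perm.mul_apply, show a (b v) - v = (a (b v) - b v) + (b v - v) by abel]
    exact W.add_mem (a3 _) (b3 _)⟩
  inv_mem' := fun {a} ⟨a1, a2, a3⟩ => ⟨inv_mem a1, fun v hv => by
    conv_lhs => rw [← a2 v hv]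
    simp, fun v => by
    have := W.neg_mem (a3 (a⁻¹ v))
    simpa using this⟩

theorem seriesStab_pow {W : AddSubgroup (Fin 2 → F)} (hchar : (p : F) = 0) {g : Equiv.Perm (Fin 2 → F)}
    (hg : g ∈ seriesStab W) : g ^ p = 1 := by
  have hk : ∀ (k : ℕ) v, (g ^ k) v = v + k • (g v - v) := by
    intro k
    induction k with
    | zero => intro v; simp
    | succ k ih =>
      intro v
      rw [pow_succ', Equiv.Perm.mul_apply, ih, hg.1, hg.2.1 _ (W.nsmul_mem (hg.2.2 v) k), succ_nsmul]
      abel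
  refine Equiv.ext fun v => ?_
  rw [hk, ← Nat.cast_smul_eq_nsmul F, hchar, zero_smul, add_zero, Equiv.Perm.one_apply]

theorem seriesStab_pgroup (h : Setup p G) (W : AddSubgroup (Fin 2 → F)) :
    IsPGroup p ↥(seriesStab W) :=
  fun g => ⟨1, Subtype.ext (by rw [pow_one]; exact seriesStab_pow h.hchar g.2)⟩

/-- A `p`-subgroup of the normaliser contains at most one conjugate of the root group, the one inside
`SL₂(F)`. -/
theorem unique_in (h : Setup p G) {S : Subgroup (Equiv.Perm (Fin 2 → F))} (hSG : S ≤ G)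
    (hS : IsPGroup p S) (hSN : S ≤ normalizer (slRange F : Set (Equiv.Perm (Fin 2 → F))))
    {a : Equiv.Perm (Fin 2 → F)} (ha : a ∈ addPerm F) (hC : cj a (rootGroup F) ≤ S) :
    cj a (rootGroup F) = S ⊓ slRange F := by
  classical
  obtain ⟨n, hn1, hn⟩ := h.hn
  choose σ hσ using fun y : ↥S => exists_semi (h.add (hSG y.2)) (hSN y.2)
  have hlin : ∀ y : ↥S, σ y = 1 → (y : Equiv.Perm (Fin 2 → F)) ∈ slRange F := by
    intro y hy
    obtain ⟨k, hk⟩ := hS y
    exact mem_slRange_of_linear h.hchar (h.add (hSG y.2)) (hy ▸ hσ y)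
      (k := k) (by simpa using congrArg Subtype.val hk)
  have hle : cj a (rootGroup F) ≤ slRange F := by
    by_cases hne : ∃ y ∈ cj a (rootGroup F), y ∈ slRange F ∧ y ≠ 1
    · obtain ⟨y, hy, hys, hy1⟩ := hne
      intro z hz
      refine hlin ⟨z, hC hz⟩ (RingEquiv.ext fun c => ?_)
      have hw : a⁻¹ (a ![1, 0]) ∈ axis F := by simp [mem_axis]
      have h1 : y (c • a ![1, 0]) = c • a ![1, 0] := by
        rw [lin_of_slRange hys, cj_fix hy hw]
      have h2 := cj_fix hz (cj_fixed hy hy1 h1)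
      have h3 := hσ ⟨z, hC hz⟩ c (a ![1, 0])
      rw [h2, cj_fix hz hw] at h3
      refine (smul_left_injective F (fun e : a ![1, 0] = 0 => ?_) h3).symm
      have := a.injective (e.trans (addPerm_zero ha).symm)
      exact one_ne_zero (congrFun this 0)
    · push Not at hne
      exfalso
      have hinj : Function.Injective fun y : ↥(cj a (rootGroup F)) => σ ⟨y, hC y.2⟩ := by
        intro y z e
        have e1 : SemiFor ((y : Equiv.Perm (Fin 2 → F))⁻¹ * (z : Equiv.Perm (Fin 2 → F))) 1 := by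
          intro c v
          have hy := hσ ⟨y, hC y.2⟩
          have hz := hσ ⟨z, hC z.2⟩
          show (y : Equiv.Perm (Fin 2 → F))⁻¹ ((z : Equiv.Perm (Fin 2 → F)) (c • v)) = _
          apply (y : Equiv.Perm (Fin 2 → F)).injective
          rw [Equiv.Perm.coe_inv, Equiv.apply_symm_apply, hz, show (1 : F ≃+* F) c = c from rfl, hy,
            ← show σ ⟨y, hC y.2⟩ = σ ⟨z, hC z.2⟩ from e]
          simp
        obtain ⟨k, hk⟩ := hS ((⟨y, hC y.2⟩ : ↥S)⁻¹ * (⟨z, hC z.2⟩ : ↥S))
        have hm : (y : Equiv.Perm (Fin 2 → F))⁻¹ * z ∈ cj a (rootGroup F) := mul_mem (inv_mem y.2) z.2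
        have h1 := hne _ hm (mem_slRange_of_linear h.hchar (h.add (hSG (hC hm))) e1 (k := k)
          (by simpa using congrArg Subtype.val hk))
        exact Subtype.ext (inv_mul_eq_one.1 h1)
      haveI : Finite (F ≃+* F) := Finite.of_injective (fun e : F ≃+* F => (e : F → F)) DFunLike.coe_injective
      have hle := Nat.card_le_card_of_injective _ hinj
      rw [card_cj_root] at hle
      exact absurd hle (not_le.2 (ringAut_small h.hchar).2)
  refine eq_of_le_of_card_ge (le_inf hC hle) ?_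
  rw [card_cj_root]
  exact card_pGroup_slRange hn1 hn inf_le_right (hS.to_le inf_le_left)

/-- A `p`-group containing a conjugate of the root group is conjugate into the normaliser, with that
conjugate going to the root group. -/
theorem exists_normalising (h : Setup p G) {T : Subgroup (Equiv.Perm (Fin 2 → F))} (hTG : T ≤ G)
    (hT : IsPGroup p T) {a : Equiv.Perm (Fin 2 → F)} (ha : a ∈ G) (haT : cj a (rootGroup F) ≤ T) :
    ∃ x ∈ G, cj x (cj a (rootGroup F)) = rootGroup F ∧
      cj x T ≤ normalizer (slRange F : Set (Equiv.Perm (Fin 2 → F))) := by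
  obtain ⟨x₀, hx₀, hN⟩ := h.hsyl T hTG hT
  have hC1 : cj (x₀ * a) (rootGroup F) ≤ slRange F := by
    have := unique_in h (S := cj x₀ T) (cj_le hx₀ hTG) (hT.map _) hN (h.add (mul_mem hx₀ ha))
      (by rw [Para.cj_mul]; exact cj_mono _ haT)
    exact this.le.trans inf_le_right
  set w := (x₀ * a) ![1, 0] with hw
  have hw0 : w ≠ 0 := fun e => by
    have := (x₀ * a).injective (e.trans (addPerm_zero (h.add (mul_mem hx₀ ha))).symm)
    exact one_ne_zero (congrFun this 0)
  obtain ⟨A, hA⟩ : ∃ A : Matrix.SpecialLinearGroup (Fin 2) F,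
      (A : Matrix (Fin 2) (Fin 2) F) *ᵥ w = ![1, 0] := by
    by_cases h0 : w 0 = 0
    · have h1 : w 1 ≠ 0 := fun h1 => hw0 (funext fun i => by fin_cases i <;> assumption)
      refine ⟨⟨!![0, (w 1)⁻¹; -w 1, 0], by simp [Matrix.det_fin_two, h1]⟩, funext fun i => ?_⟩
      fin_cases i <;> simp [Matrix.mulVec, dotProduct, Fin.sum_univ_two, h1, h0]
    · refine ⟨⟨!![(w 0)⁻¹, 0; -w 1, w 0], by simp [Matrix.det_fin_two, h0]⟩, funext fun i => ?_⟩
      fin_cases i <;> simp [Matrix.mulVec, dotProduct, Fin.sum_univ_two, h0, mul_comm]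
  have hls : slAct A ∈ slRange F := ⟨A, rfl⟩
  refine ⟨slAct A * x₀, mul_mem (h.hL hls) hx₀, ?_, ?_⟩
  · rw [← Para.cj_mul, mul_assoc]
    refine eq_of_le_of_card_ge (fun y hy => ?_) (by rw [card_cj])
    obtain ⟨B, rfl⟩ : y ∈ slRange F := by
      rw [Para.cj_mul] at hy
      exact (cj_le hls hC1 : cj (slAct A) (cj (x₀ * a) (rootGroup F)) ≤ slRange F) hy
    by_cases hB : slAct B = 1
    · rw [hB]; exact one_mem _
    have he1 : slAct B ![1, 0] = ![1, 0] := cj_fix hy (by
      rw [mem_axis, mul_inv_rev, Equiv.Perm.mul_apply]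
      rw [show (slAct A)⁻¹ ![1, 0] = w by
        rw [Equiv.Perm.inv_eq_iff_eq, slAct_apply, hA]]
      simp [hw])
    rw [slAct_apply] at he1
    have h00 : (B : Matrix (Fin 2) (Fin 2) F) 0 0 = 1 := by
      simpa [Matrix.mulVec, dotProduct, Fin.sum_univ_two] using congrFun he1 0
    have h10 : (B : Matrix (Fin 2) (Fin 2) F) 1 0 = 0 := by
      simpa [Matrix.mulVec, dotProduct, Fin.sum_univ_two] using congrFun he1 1
    have h11 := B.2
    rw [Matrix.det_fin_two, h00, h10, one_mul, mul_zero, sub_zero] at h11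
    rw [show B = SL2.upper ((B : Matrix (Fin 2) (Fin 2) F) 0 1) from Subtype.ext (Matrix.ext fun i j => by
      fin_cases i <;> fin_cases j <;> simp [h00, h10, h11])]
    exact upper_mem _
  · rw [Para.cj_mul]
    exact cj_le (le_normalizer hls) hN

/-- The root group is weakly closed in each `p`-group containing it. -/
theorem weak (h : Setup p G) {T : Subgroup (Equiv.Perm (Fin 2 → F))} (hTG : T ≤ G) (hT : IsPGroup p T)
    (hU : rootGroup F ≤ T) {g : Equiv.Perm (Fin 2 → F)} (hg : g ∈ G) (hgT : cj g (rootGroup F) ≤ T) :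
    cj g (rootGroup F) = rootGroup F := by
  obtain ⟨x, hx, hxU, hxN⟩ := exists_normalising h hTG hT G.one_mem (by rwa [Para.cj_one])
  rw [Para.cj_one] at hxU
  have hS := cj_le hx hTG
  have e1 := unique_in h hS (hT.map _) hxN (h.add hx) (cj_mono x hU)
  have e2 := unique_in h hS (hT.map _) hxN (h.add (mul_mem hx hg)) (by rw [Para.cj_mul]; exact cj_mono x hgT)
  rw [Para.cj_mul, ← e1] at e2
  rw [← Para.cj_inv_cj x (cj g _), e2, Para.cj_inv_cj]

/-- Conjugates of the root group meet trivially. -/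
theorem ti (h : Setup p G) {g : Equiv.Perm (Fin 2 → F)} (hg : g ∈ G) {y : Equiv.Perm (Fin 2 → F)}
    (hy : y ∈ rootGroup F) (hyg : y ∈ cj g (rootGroup F)) (hy1 : y ≠ 1) :
    cj g (rootGroup F) = rootGroup F := by
  have hax : ∀ v, g⁻¹ v ∈ axis F → v ∈ axis F := fun v hv => root_fixed hy hy1 (cj_fix hyg hv)
  have hax' : ∀ v, v ∈ axis F → g⁻¹ v ∈ axis F := fun v hv => cj_fixed hyg hy1 (root_fix hy hv)
  refine weak h (T := G ⊓ seriesStab (axis F).toAddSubgroup) inf_le_left
    ((seriesStab_pgroup h _).to_le inf_le_right) ?_ hg ?_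
  · exact fun u hu => ⟨rootGroup_le_G h hu, h.add (rootGroup_le_G h hu), fun v hv => root_fix hu hv,
      fun v => root_sub hu v⟩
  · intro u hu
    have huG : u ∈ G := cj_le hg (rootGroup_le_G h) hu
    exact ⟨huG, h.add huG, fun v hv => cj_fix hu (hax' v hv), fun v => hax _ (cj_sub (h.add hg) hu v)⟩

end Cfsg.Agent.H34.Trans
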